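import Mathlib
import Cfsg.Agent.Helper16.NGDefs

/-!
# CALL S4404 (helper16), piece FACTS (double): six small facts on `V = [x, M]`
-/

set_option autoImplicit false

namespace Cfsg.Agent.Helper36.NGFACTS

open Cfsg.Agent.Helper16.NG

variable {S : Type*} [Group S]

theorem ng_V_le {M V : Subgroup S} {x : S} (h : Cfg M V x) : V ≤ M := by
  intro v hv
  obtain ⟨m, hm, rfl⟩ := (h.hV v).1 hv
  exact M.mul_mem (h.normal.conj_mem m hm x) (M.inv_mem hm)

theorem ng_V_conj {M V : Subgroup S} {x : S} (h : Cfg M V x) : ∀ v ∈ V, x * v * x⁻¹ ∈ V := by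
  intro v hv
  obtain ⟨m, hm, rfl⟩ := (h.hV v).1 hv
  refine (h.hV _).2 ⟨x * m * x⁻¹, h.normal.conj_mem m hm x, ?_⟩
  group

theorem ng_V_fpf {M V : Subgroup S} {x : S} (h : Cfg M V x) : ∀ v ∈ V, x * v * x⁻¹ = v → v = 1 := by
  intro v hv hfix
  have hvM : v ∈ M := ng_V_le h hv
  obtain ⟨m, hm, rfl⟩ := (h.hV v).1 hv
  have ha : x * m * x⁻¹ ∈ M := h.normal.conj_mem m hm x
  have hb : x * (x * m * x⁻¹) * x⁻¹ ∈ M := h.normal.conj_mem _ ha x
  have hc : x * (x * (x * m * x⁻¹) * x⁻¹) * x⁻¹ = m := by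
    have h1 := h.cube m hm
    have e3 : x ^ 3 = x * x * x := by rw [pow_succ, pow_succ, pow_one]
    rw [e3] at h1
    calc x * (x * (x * m * x⁻¹) * x⁻¹) * x⁻¹ = x * x * x * m * (x * x * x)⁻¹ := by group
      _ = m := h1
  generalize hA : x * m * x⁻¹ = a at *
  generalize hB : x * a * x⁻¹ = b at *
  -- `v = a m⁻¹`, `x v x⁻¹ = b a⁻¹`, `x² v x⁻² = m b⁻¹`
  have e1 : x * (a * m⁻¹) * x⁻¹ = b * a⁻¹ := by
    rw [← hB, ← hA]; group
  have e2 : x * (b * a⁻¹) * x⁻¹ = m * b⁻¹ := by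
    calc x * (b * a⁻¹) * x⁻¹ = (x * b * x⁻¹) * (x * a * x⁻¹)⁻¹ := by group
      _ = m * b⁻¹ := by rw [hc, hB]
  have f1 : b * a⁻¹ = a * m⁻¹ := e1.symm.trans hfix
  have f2 : m * b⁻¹ = a * m⁻¹ := by
    rw [← e2, f1]; exact hfix
  have cab : a * b = b * a := h.comm a ha b hb
  have cam : Commute a m := h.comm a ha m hm
  have cbm : Commute b m := h.comm b hb m hm
  have h1 : m⁻¹ * b = b * m⁻¹ := (cbm.inv_right).eq.symm
  have h2 : a⁻¹ * m = m * a⁻¹ := (cam.inv_left).eq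
  have h3 : a * m⁻¹ * (b * a⁻¹) * (m * b⁻¹) = 1 := by
    calc a * m⁻¹ * (b * a⁻¹) * (m * b⁻¹) = a * (m⁻¹ * b) * (a⁻¹ * m) * b⁻¹ := by group
      _ = a * (b * m⁻¹) * (m * a⁻¹) * b⁻¹ := by rw [h1, h2]
      _ = (a * b) * a⁻¹ * b⁻¹ := by group
      _ = (b * a) * a⁻¹ * b⁻¹ := by rw [cab]
      _ = 1 := by group
  rw [f1, f2] at h3
  have h4 := h.sq _ hvM
  rw [pow_two] at h4
  rw [h4, one_mul] at h3
  exact h3

theorem ng_V_irred {M V : Subgroup S} {x : S} (h : Cfg M V x) (K : Subgroup S) (hK : K ≤ V)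
    (hKx : ∀ k ∈ K, x * k * x⁻¹ ∈ K) : K = ⊥ ∨ K = V := by
  have hVfin : Finite ↥V := Nat.finite_of_card_ne_zero (by rw [h.card]; norm_num)
  have hKfin : Finite ↥K :=
    Finite.of_injective (Subgroup.inclusion hK) (Subgroup.inclusion_injective hK)
  have hdvd : Nat.card ↥K ∣ Nat.card ↥V := Subgroup.card_dvd_of_le hK
  rw [h.card] at hdvd
  have hpos : 0 < Nat.card ↥K := Nat.card_pos
  have hle : Nat.card ↥K ≤ 4 := Nat.le_of_dvd (by norm_num) hdvd
  interval_cases hc : Nat.card ↥K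
  · left
    exact Subgroup.card_eq_one.mp hc
  · exfalso
    obtain ⟨⟨k, hk⟩, hk1, huniq⟩ := (Nat.card_eq_two_iff' (1 : ↥K)).mp hc
    have h1 : (⟨x * k * x⁻¹, hKx k hk⟩ : ↥K) ≠ 1 := by
      intro h'
      apply hk1
      have h2 : x * k * x⁻¹ = 1 := congrArg Subtype.val h'
      apply Subtype.ext
      show k = 1
      have h3 : k = x⁻¹ * (x * k * x⁻¹) * x := by group
      rw [h3, h2]; group
    have h2 := huniq _ h1
    have h3 : x * k * x⁻¹ = k := congrArg Subtype.val h2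
    have h4 := ng_V_fpf h k (hK hk) h3
    exact hk1 (Subtype.ext h4)
  · norm_num at hdvd
  · right
    exact Subgroup.eq_of_le_of_card_ge hK (by rw [h.card, hc])

theorem ng_V_norm_of_comm {M V : Subgroup S} {x : S} (h : Cfg M V x) (g : S)
    (hg : ∀ m ∈ M, g * (x * m * x⁻¹) * g⁻¹ = x * (g * m * g⁻¹) * x⁻¹) : ∀ v ∈ V, g * v * g⁻¹ ∈ V := by
  intro v hv
  obtain ⟨m, hm, rfl⟩ := (h.hV v).1 hv
  refine (h.hV _).2 ⟨g * m * g⁻¹, h.normal.conj_mem m hm g, ?_⟩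
  calc g * (x * m * x⁻¹ * m⁻¹) * g⁻¹ = (g * (x * m * x⁻¹) * g⁻¹) * (g * m * g⁻¹)⁻¹ := by group
    _ = x * (g * m * g⁻¹) * x⁻¹ * (g * m * g⁻¹)⁻¹ := by rw [hg m hm]

theorem ng_V_cent_of_norm [Finite S] {M V : Subgroup S} {x : S} (h : Cfg M V x) (g : S)
    (hg : ∀ v ∈ V, g * v * g⁻¹ ∈ V) (hord : (orderOf g).Coprime 6) :
    g ∈ Subgroup.centralizer (V : Set S) := by
  classical
  have hpowV : ∀ j : ℕ, ∀ v ∈ V, g ^ j * v * (g ^ j)⁻¹ ∈ V := by
    intro j
    induction j with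
    | zero => intro v hv; simpa using hv
    | succ j ih =>
      intro v hv
      have h1 := hg _ (ih v hv)
      have e : g ^ (j + 1) * v * (g ^ (j + 1))⁻¹ = g * (g ^ j * v * (g ^ j)⁻¹) * g⁻¹ := by
        rw [pow_succ']; group
      rw [e]
      exact h1
  have hinv : g ^ (orderOf g - 1) = g⁻¹ := by
    apply eq_inv_of_mul_eq_one_left
    rw [← pow_succ, Nat.sub_add_cancel (orderOf_pos g), pow_orderOf_eq_one]
  have hg' : ∀ v ∈ V, g⁻¹ * v * g ∈ V := by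
    intro v hv
    have h2 := hpowV (orderOf g - 1) v hv
    rw [hinv, inv_inv] at h2
    exact h2
  let σ : Equiv.Perm ↥V :=
    { toFun := fun v => ⟨g * v * g⁻¹, hg v v.2⟩
      invFun := fun v => ⟨g⁻¹ * v * g, hg' v v.2⟩
      left_inv := fun v => Subtype.ext (by show g⁻¹ * (g * (v : S) * g⁻¹) * g = v; group)
      right_inv := fun v => Subtype.ext (by show g * (g⁻¹ * (v : S) * g) * g⁻¹ = v; group) }
  have hσ : ∀ v : ↥V, ((σ v : ↥V) : S) = g * v * g⁻¹ := fun v => rfl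
  have hpow : ∀ n : ℕ, ∀ v : ↥V, (((σ ^ n) v : ↥V) : S) = g ^ n * v * (g ^ n)⁻¹ := by
    intro n
    induction n with
    | zero => intro v; simp
    | succ n ih =>
      intro v
      rw [pow_succ', Equiv.Perm.mul_apply, hσ, ih, pow_succ']
      group
  have h1 : σ ^ orderOf g = 1 := by
    ext v
    rw [hpow, pow_orderOf_eq_one]
    simp
  have h2 : orderOf σ ∣ orderOf g := orderOf_dvd_of_pow_eq_one h1
  letI : Fintype ↥V := Fintype.ofFinite _
  have hV4 : Fintype.card ↥V = 4 := by rw [← Nat.card_eq_fintype_card, h.card]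
  have h3 : orderOf σ ∣ 24 := by
    have h4 : orderOf σ ∣ Fintype.card (Equiv.Perm ↥V) := orderOf_dvd_card
    rw [Fintype.card_perm, hV4] at h4
    exact h4
  have hcop : (orderOf g).Coprime 24 := by
    have c2 : (orderOf g).Coprime 2 := Nat.Coprime.coprime_mul_right_right (show (orderOf g).Coprime (2 * 3) from hord)
    have c3 : (orderOf g).Coprime 3 := Nat.Coprime.coprime_mul_left_right (show (orderOf g).Coprime (2 * 3) from hord)
    exact (c2.pow_right 3).mul_right c3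
  have h5 : orderOf σ = 1 := Nat.dvd_one.mp (hcop ▸ Nat.dvd_gcd h2 h3)
  have h6 : σ = 1 := orderOf_eq_one_iff.mp h5
  rw [Subgroup.mem_centralizer_iff]
  intro v hv
  have h7 : g * v * g⁻¹ = v := by
    have h8 := hσ ⟨v, hv⟩
    rw [h6] at h8
    exact h8.symm
  calc v * g = (g * v * g⁻¹) * g := by rw [h7]
    _ = g * v := by group

end Cfsg.Agent.Helper36.NGFACTS
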