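import Mathlib

set_option autoImplicit false

namespace Cfsg.Agent.Helper36

open Module

universe u

/-- A finite-dimensional space carrying a (left-)nondegenerate alternating bilinear form has even
dimension. -/
theorem even_finrank_of_alt {F : Type*} [Field F] :
    ∀ (n : ℕ) (V : Type u) [AddCommGroup V] [Module F V] [FiniteDimensional F V]
      (B : V →ₗ[F] V →ₗ[F] F), (∀ v, B v v = 0) → (∀ v, (∀ w, B v w = 0) → v = 0) →
      finrank F V = n → Even n := by
  intro n
  induction n using Nat.strong_induction_on with
  | _ n ih =>
    intro V _ _ _ B halt hnd hn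
    rcases Nat.eq_zero_or_pos n with h0 | hpos
    · rw [h0]; exact ⟨0, rfl⟩
    · have hnt : Nontrivial V := by
        apply Module.nontrivial_of_finrank_pos (R := F)
        rw [hn]; exact hpos
      obtain ⟨u, hu⟩ := exists_ne (0 : V)
      have hv : ∃ v, B u v ≠ 0 := by
        by_contra hcon
        exact hu (hnd u (fun w => by_contra fun hw => hcon ⟨w, hw⟩))
      obtain ⟨v, hv⟩ := hv
      have hskew : ∀ x y, B x y = - B y x := by
        intro x y
        have h := halt (x + y)
        simp only [map_add, LinearMap.add_apply, halt, zero_add, add_zero] at h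
        exact eq_neg_of_add_eq_zero_right h
      let φ : V →ₗ[F] F × F := (B.flip u).prod (B.flip v)
      have hφ : ∀ x, φ x = (B x u, B x v) := fun x => rfl
      have hsurj : Function.Surjective φ := by
        rintro ⟨a, b⟩
        refine ⟨(b / B u v) • u + (a / B v u) • v, ?_⟩
        have hvu : B v u ≠ 0 := by rw [hskew v u]; exact neg_ne_zero.2 hv
        rw [hφ]
        simp only [map_add, map_smul, LinearMap.add_apply, LinearMap.smul_apply, halt,
          smul_eq_mul, mul_zero, zero_add, add_zero]
        rw [div_mul_cancel₀ _ hvu, div_mul_cancel₀ _ hv]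
      have hrange : finrank F (LinearMap.range φ) = 2 := by
        rw [LinearMap.range_eq_top.2 hsurj, finrank_top, finrank_prod, finrank_self]
      have hker : finrank F (LinearMap.ker φ) + 2 = n := by
        have := LinearMap.finrank_range_add_finrank_ker φ
        rw [hrange, hn] at this
        omega
      have hmem : ∀ x : LinearMap.ker φ, B x u = 0 ∧ B x v = 0 := by
        intro x
        have := LinearMap.mem_ker.1 x.2
        rw [hφ, Prod.mk_eq_zero] at this
        exact this
      let B' : LinearMap.ker φ →ₗ[F] LinearMap.ker φ →ₗ[F] F :=
        B.compl₁₂ (LinearMap.ker φ).subtype (LinearMap.ker φ).subtype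
      have hB' : ∀ x y : LinearMap.ker φ, B' x y = B x y := fun x y => rfl
      have hEven : Even (finrank F (LinearMap.ker φ)) := by
        refine ih (finrank F (LinearMap.ker φ)) (by omega) (LinearMap.ker φ) B' ?_ ?_ rfl
        · intro x; rw [hB']; exact halt _
        · intro x hx
          apply Subtype.ext
          apply hnd
          intro w
          have hvu : B v u ≠ 0 := by rw [hskew v u]; exact neg_ne_zero.2 hv
          set a := B w v / B u v with ha
          set b := B w u / B v u with hb
          have hy : w - a • u - b • v ∈ LinearMap.ker φ := by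
            rw [LinearMap.mem_ker, hφ, Prod.mk_eq_zero]
            simp only [map_sub, map_smul, LinearMap.sub_apply, LinearMap.smul_apply, halt,
              smul_eq_mul, mul_zero, sub_zero]
            rw [ha, hb, div_mul_cancel₀ _ hvu, div_mul_cancel₀ _ hv]
            simp
          have h1 := hx ⟨_, hy⟩
          rw [hB'] at h1
          simp only [map_sub, map_smul, (hmem x).1, (hmem x).2, smul_eq_mul, mul_zero,
            sub_zero] at h1
          simpa using h1
      rw [← hker]
      exact hEven.add ⟨1, rfl⟩

end Cfsg.Agent.Helper36
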