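import Mathlib

set_option autoImplicit false

namespace Cfsg.Agent.Helper36

open Module

section AS

variable {F : Type*} [Field F] [CharP F 2]

/-- The Artin–Schreier map `x ↦ x² + x`. -/
def asHom (F : Type*) [Field F] [CharP F 2] : F →+ F where
  toFun := fun x => x * x + x
  map_zero' := by simp
  map_add' := fun x y => by rw [CharTwo.add_mul_self]; abel

theorem asHom_apply (x : F) : asHom F x = x * x + x := rfl

/-- The Artin–Schreier subgroup `{x² + x}`. -/
def asSub (F : Type*) [Field F] [CharP F 2] : AddSubgroup F := (asHom F).range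

theorem mem_asSub (y : F) : y ∈ asSub F ↔ ∃ x, x * x + x = y := Iff.rfl

theorem asSub_index [Finite F] : (asSub F).index = 2 := by
  have h1 := AddSubgroup.index_ker (asHom F)
  have h2 := AddSubgroup.card_mul_index (asHom F).ker
  have h3 := AddSubgroup.card_mul_index (asSub F)
  have hker : Nat.card (asHom F).ker = 2 := by
    have hset : ((asHom F).ker : Set F) = {0, 1} := by
      ext x
      simp only [SetLike.mem_coe, AddMonoidHom.mem_ker, asHom_apply, Set.mem_insert_iff,
        Set.mem_singleton_iff]
      constructor
      · intro h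
        have : x * (x + 1) = 0 := by rw [mul_add, mul_one]; exact h
        rcases mul_eq_zero.1 this with h | h
        · left; exact h
        · right; exact CharTwo.add_eq_zero.1 h
      · rintro (rfl | rfl)
        · simp
        · rw [mul_one]; exact CharTwo.add_self_eq_zero 1
    have : Nat.card (asHom F).ker = Set.ncard ((asHom F).ker : Set F) := rfl
    rw [this, hset, Set.ncard_pair zero_ne_one]
  rw [hker, h1] at h2
  have h4 : Nat.card (asSub F) = Nat.card (asHom F).range := rfl
  have hpos : 0 < Nat.card (asSub F) := Nat.card_pos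
  rw [← h4] at h2
  have : Nat.card (asSub F) * (asSub F).index = Nat.card (asSub F) * 2 := by
    rw [h3, ← h2, mul_comm]
  exact Nat.eq_of_mul_eq_mul_left hpos this

open Classical in
/-- The quadratic character attached to the Artin–Schreier subgroup. -/
noncomputable def asChar (x : F) : ℤ := if x ∈ asSub F then 1 else -1

theorem asChar_zero : asChar (0 : F) = 1 := by
  unfold asChar
  rw [if_pos (zero_mem _)]

theorem asChar_eq_one_iff (x : F) : asChar x = 1 ↔ x ∈ asSub F := by
  unfold asChar
  split_ifs with h
  · simp [h]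
  · simp [h]

theorem asChar_add [Finite F] (x y : F) : asChar (x + y) = asChar x * asChar y := by
  have h := AddSubgroup.add_mem_iff_of_index_two (asSub_index (F := F)) (a := x) (b := y)
  unfold asChar
  by_cases hx : x ∈ asSub F <;> by_cases hy : y ∈ asSub F <;> simp [h, hx, hy]

theorem asChar_mul_self [Finite F] (x : F) : asChar (x * x) = asChar x := by
  have h := AddSubgroup.add_mem_iff_of_index_two (asSub_index (F := F)) (a := x * x) (b := x)
  have h1 : x * x + x ∈ asSub F := ⟨x, rfl⟩
  have h2 := h.1 h1
  unfold asChar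
  by_cases hx : x ∈ asSub F
  · rw [if_pos hx, if_pos (h2.2 hx)]
  · rw [if_neg hx, if_neg (fun h' => hx (h2.1 h'))]

theorem asChar_sq_eq_one (x : F) : asChar x * asChar x = 1 := by
  unfold asChar
  split_ifs <;> simp

theorem exists_asChar_neg [Finite F] : ∃ x : F, asChar x = -1 := by
  have h : asSub F ≠ ⊤ := by
    intro h
    have := asSub_index (F := F)
    rw [h, AddSubgroup.index_top] at this
    omega
  have : ∃ x, x ∉ asSub F := by
    by_contra hcon
    apply h
    rw [eq_top_iff]
    intro x _
    by_contra hx
    exact hcon ⟨x, hx⟩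
  obtain ⟨x, hx⟩ := this
  refine ⟨x, ?_⟩
  unfold asChar
  rw [if_neg hx]

/-- Orthogonality: the character sum of a nonzero linear functional vanishes. -/
theorem asChar_sum_linear [Fintype F] {V : Type*} [AddCommGroup V] [Module F V] [Fintype V]
    (l : V →ₗ[F] F) (hl : l ≠ 0) : ∑ v, asChar (l v) = 0 := by
  have h1 : ∃ v1, l v1 ≠ 0 := by
    by_contra hcon
    apply hl
    ext v
    by_contra hv
    exact hcon ⟨v, hv⟩
  obtain ⟨v1, hv1⟩ := h1
  obtain ⟨x, hx⟩ := exists_asChar_neg (F := F)
  have hv0 : l ((x / l v1) • v1) = x := by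
    rw [map_smul, smul_eq_mul, div_mul_cancel₀ x hv1]
  have h2 : ∑ v, asChar (l v) = ∑ v, asChar (l (v + (x / l v1) • v1)) :=
    (Equiv.sum_comp (Equiv.addRight ((x / l v1) • v1)) (fun v => asChar (l v))).symm
  have h3 : ∑ v, asChar (l (v + (x / l v1) • v1)) = - ∑ v, asChar (l v) := by
    rw [← Finset.sum_neg_distrib]
    apply Finset.sum_congr rfl
    intro v _
    rw [map_add, hv0, asChar_add, hx]
    ring
  rw [h3] at h2
  omega

end AS

end Cfsg.Agent.Helper36
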