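import Cfsg.Agent.Helper36.InvData3

set_option autoImplicit false

namespace Cfsg.Agent.Helper36

open Module

universe u

namespace InvData

variable {F : Type*} [Field F] {V : Type u} [AddCommGroup V] [Module F V]
  {V' : Type u} [AddCommGroup V'] [Module F V']

open Submodule Set

theorem q_add [CharP F 2] (D : InvData F V) (x y : V) :
    D.f (x + y) (D.t (x + y)) = D.f x (D.t x) + D.f y (D.t y) := by
  have h1 : D.f y (D.t x) = D.f x (D.t y) := by
    rw [← D.isom y (D.t x), D.inv, D.symm]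
  simp only [map_add, LinearMap.add_apply, h1]
  have := CharTwo.add_self_eq_zero (D.f x (D.t y))
  linear_combination this

theorem q_smul (D : InvData F V) (c : F) (x : V) :
    D.f (c • x) (D.t (c • x)) = c * c * D.f x (D.t x) := by
  simp only [map_smul, LinearMap.smul_apply, smul_eq_mul]
  ring

theorem q_N [CharP F 2] (D : InvData F V) (x : V) : D.f (D.N x) (D.t (D.N x)) = 0 := by
  rw [D.t_eq, D.N_N, add_zero, D.alt]

/-- Case 2: a good vector `u` with `f(u, t u) = 1`. -/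
theorem good_exists [CharP F 2] [Finite F] (D : InvData F V) (h : ¬ D.altT) :
    ∃ u, D.f u (D.t u) = 1 ∧
      ((∀ z, D.f u z = 0 → D.f (D.N u) z = 0 → D.f z (D.t z) = 0) →
        (∀ z, D.f u z = 0 → D.f (D.N u) z = 0 → D.t z = z)) := by
  have h0 : ∃ u0, D.f u0 (D.t u0) ≠ 0 := by
    by_contra hcon
    exact h (fun v => by_contra fun hv => hcon ⟨v, hv⟩)
  obtain ⟨u0, hu0⟩ := h0
  obtain ⟨s, hs⟩ := FiniteField.isSquare_of_char_two (ringChar.eq F 2) (D.f u0 (D.t u0))⁻¹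
  obtain ⟨u, hu⟩ : ∃ u, u = s • u0 := ⟨_, rfl⟩
  have hq : D.f u (D.t u) = 1 := by
    rw [hu, q_smul, ← hs, inv_mul_cancel₀ hu0]
  by_cases hgood : ((∀ z, D.f u z = 0 → D.f (D.N u) z = 0 → D.f z (D.t z) = 0) →
        (∀ z, D.f u z = 0 → D.f (D.N u) z = 0 → D.t z = z))
  · exact ⟨u, hq, hgood⟩
  rw [Classical.not_imp] at hgood
  obtain ⟨hperp, hne⟩ := hgood
  have hy : ∃ y, D.f u y = 0 ∧ D.f (D.N u) y = 0 ∧ D.N y ≠ 0 := by
    by_contra hcon
    apply hne
    intro z hz1 hz2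
    have : D.N z = 0 := by_contra fun hz => hcon ⟨z, hz1, hz2, hz⟩
    rw [N_apply] at this
    exact sub_eq_zero.1 this
  obtain ⟨y, hy1, hy2, hy3⟩ := hy
  obtain ⟨w, hw⟩ : ∃ w, w = D.N u := ⟨_, rfl⟩
  rw [← hw] at hy2
  have huw : D.f u w = 1 := by rw [hw, f_N_self]; exact hq
  have hwu : D.f w u = 1 := by rw [D.symm]; exact huw
  have hNw : D.N w = 0 := by rw [hw]; exact D.N_N u
  have hx0 : ∃ x0, D.f (D.N y) x0 ≠ 0 := by
    by_contra hcon
    exact hy3 (D.nondeg _ (fun w => by_contra fun hw => hcon ⟨w, hw⟩))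
  obtain ⟨x0, hx0⟩ := hx0
  have hNy1 : D.f (D.N y) u = 0 := by
    rw [D.selfadj, ← hw, D.symm]; exact hy2
  have hNy2 : D.f (D.N y) w = 0 := by
    rw [D.selfadj, hNw, map_zero]
  obtain ⟨x1, hx1⟩ : ∃ x1, x1 = x0 + (D.f w x0) • u + (D.f u x0) • w := ⟨_, rfl⟩
  have hx1u : D.f u x1 = 0 := by
    rw [hx1]
    simp only [map_add, map_smul, smul_eq_mul, D.alt, huw, mul_zero, mul_one, add_zero]
    exact CharTwo.add_self_eq_zero _
  have hx1w : D.f w x1 = 0 := by
    rw [hx1]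
    simp only [map_add, map_smul, smul_eq_mul, D.alt, hwu, mul_zero, mul_one, add_zero]
    exact CharTwo.add_self_eq_zero _
  have hx1y : D.f (D.N y) x1 = D.f (D.N y) x0 := by
    rw [hx1]
    simp only [map_add, map_smul, smul_eq_mul, hNy1, hNy2, mul_zero, add_zero]
  obtain ⟨x, hx⟩ : ∃ x, x = (D.f (D.N y) x0)⁻¹ • x1 := ⟨_, rfl⟩
  have hxu : D.f u x = 0 := by rw [hx, map_smul, hx1u, smul_zero]
  have hxw : D.f w x = 0 := by rw [hx, map_smul, hx1w, smul_zero]
  have hxy : D.f (D.N y) x = 1 := by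
    rw [hx, map_smul, hx1y, smul_eq_mul, inv_mul_cancel₀ hx0]
  have hqx : D.f x (D.t x) = 0 := hperp x hxu (by rw [← hw]; exact hxw)
  have hqy : D.f y (D.t y) = 0 := hperp y hy1 (by rw [← hw]; exact hy2)
  have hxNx : D.f x (D.N x) = 0 := by rw [f_N_self]; exact hqx
  -- the new vector
  obtain ⟨u2, hu2⟩ : ∃ u2, u2 = u + x := ⟨_, rfl⟩
  have hNu2 : D.N u2 = w + D.N x := by rw [hu2, map_add, hw]
  have hq2 : D.f u2 (D.t u2) = 1 := by
    rw [hu2, q_add, hq, hqx, add_zero]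
  obtain ⟨c, hc⟩ : ∃ c, c = D.f y x := ⟨_, rfl⟩
  obtain ⟨z, hz⟩ : ∃ z, z = u + y + c • D.N u2 := ⟨_, rfl⟩
  have hqz : D.f z (D.t z) = 1 := by
    rw [hz, q_add, q_add, q_smul, q_N, hq, hqy, mul_zero, add_zero, add_zero]
  have hz1 : D.f u2 z = 0 := by
    have e1 : D.f u (D.N x) = 0 := by rw [← D.selfadj, ← hw]; exact hxw
    have e2 : D.f x u = 0 := by rw [D.symm]; exact hxu
    have e3 : D.f x w = 0 := by rw [D.symm]; exact hxw
    have e4 : D.f x y = c := by rw [D.symm, hc]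
    rw [hz, hNu2, hu2]
    simp only [map_add, map_smul, LinearMap.add_apply, smul_eq_mul, D.alt, hy1, huw, e1, e2, e3,
      e4, hxNx, mul_zero, mul_one, add_zero, zero_add]
    exact CharTwo.add_self_eq_zero _
  have hz2 : D.f (D.N u2) z = 0 := by
    have e1 : D.f w (D.N x) = 0 := by rw [← D.selfadj, hNw, map_zero, LinearMap.zero_apply]
    have e2 : D.f (D.N x) u = 0 := by rw [D.selfadj, ← hw, D.symm]; exact hxw
    have e3 : D.f (D.N x) y = 1 := by rw [D.selfadj, D.symm]; exact hxy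
    have e4 : D.f (D.N x) w = 0 := by rw [D.symm]; exact e1
    rw [hz, hNu2]
    simp only [map_add, map_smul, LinearMap.add_apply, smul_eq_mul, D.alt, hwu, hy2, e1, e2, e3,
      e4, mul_zero, add_zero, zero_add]
    exact CharTwo.add_self_eq_zero _
  refine ⟨u2, hq2, ?_⟩
  intro hall
  exfalso
  have := hall z hz1 hz2
  rw [hqz] at this
  exact one_ne_zero this

/-- A block of type I from a vector `u` with `f(u, t u) = 1`. -/
theorem blockI [CharP F 2] (D : InvData F V) (u : V) (hu : D.f u (D.t u) = 1) :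
    (∀ i j, D.f (![u, D.N u] i) (![u, D.N u] j) = G2 F i j) ∧
      ∀ i, D.t (![u, D.N u] i) = ∑ j, TI F j i • ![u, D.N u] j := by
  have huw : D.f u (D.N u) = 1 := by rw [f_N_self]; exact hu
  constructor
  · intro i j
    fin_cases i <;> fin_cases j
    · simp [G2, D.alt]
    · simpa [G2] using huw
    · simp only [G2]
      rw [D.symm]
      simpa using huw
    · simp [G2, D.alt]
  · intro i
    fin_cases i
    · simp [Fin.sum_univ_two, TI, D.t_eq]
    · simp [Fin.sum_univ_two, TI, D.t_eq, D.N_N]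

end InvData

end Cfsg.Agent.Helper36
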