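import Cfsg.Agent.Helper36.InvData4

set_option autoImplicit false

namespace Cfsg.Agent.Helper36

open Module

universe u v

namespace InvData

open Submodule Set

/-- the classification statement in dimension `n` -/
def Classify (F : Type v) [Field F] (n : ℕ) : Prop :=
  ∀ (V V' : Type u) [AddCommGroup V] [Module F V] [AddCommGroup V'] [Module F V']
    [FiniteDimensional F V] [FiniteDimensional F V'] (D : InvData F V) (D' : InvData F V'),
    finrank F V = n → finrank F V' = n → D.rk = D'.rk → (D.altT ↔ D'.altT) → Equiv3 D D'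

theorem peel_step {F : Type v} [Field F] [CharP F 2] {n : ℕ} (IH : ∀ m < n, Classify.{u} F m)
    {V V' : Type u} [AddCommGroup V] [Module F V] [AddCommGroup V'] [Module F V']
    [FiniteDimensional F V] [FiniteDimensional F V'] (D : InvData F V) (D' : InvData F V')
    (hn : finrank F V = n) (hn' : finrank F V' = n) (hrk : D.rk = D'.rk)
    {k : ℕ} (hk : 0 < k) (b : Fin k → V) (b' : Fin k → V') (G T : Fin k → Fin k → F)
    (hG : ∀ i j, D.f (b i) (b j) = G i j) (hG' : ∀ i j, D'.f (b' i) (b' j) = G i j)
    (hGnd : ∀ c : Fin k → F, (∀ j, ∑ i, c i * G i j = 0) → c = 0)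
    (hT : ∀ i, D.t (b i) = ∑ j, T j i • b j) (hT' : ∀ i, D'.t (b' i) = ∑ j, T j i • b' j)
    (halt : (D.perpData (span F (range b)) (D.span_inv b T hT) (D.span_nd b G hG hGnd)).rk
        = (D'.perpData (span F (range b')) (D'.span_inv b' T hT') (D'.span_nd b' G hG' hGnd)).rk →
      ((D.perpData (span F (range b)) (D.span_inv b T hT) (D.span_nd b G hG hGnd)).altT ↔
        (D'.perpData (span F (range b')) (D'.span_inv b' T hT')
          (D'.span_nd b' G hG' hGnd)).altT)) :
    Equiv3 D D' := by
  have h0 := span_equiv D D' b b' G T hG hG' hGnd hT hT'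
  have hr0 := rk_eq_of_equiv _ _ h0
  have hr := D.rk_add (span F (range b)) (D.span_inv b T hT) (D.span_nd b G hG hGnd)
  have hr' := D'.rk_add (span F (range b')) (D'.span_inv b' T hT') (D'.span_nd b' G hG' hGnd)
  have hrp : (D.perpData (span F (range b)) (D.span_inv b T hT) (D.span_nd b G hG hGnd)).rk
        = (D'.perpData (span F (range b')) (D'.span_inv b' T hT')
          (D'.span_nd b' G hG' hGnd)).rk := by omega
  have hli := D.span_li b G hG hGnd
  have hli' := D'.span_li b' G hG' hGnd
  have hd : finrank F (span F (range b)) = k := by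
    rw [finrank_span_eq_card hli, Fintype.card_fin]
  have hd' : finrank F (span F (range b')) = k := by
    rw [finrank_span_eq_card hli', Fintype.card_fin]
  have hc := Submodule.finrank_add_eq_of_isCompl (D.isCompl_perp _ (D.span_nd b G hG hGnd))
  have hc' := Submodule.finrank_add_eq_of_isCompl (D'.isCompl_perp _ (D'.span_nd b' G hG' hGnd))
  apply equiv_of_peel D D' _ _ _ _ _ _ h0
  exact IH (finrank F (D.perp (span F (range b)))) (by omega) _ _ _ _ rfl (by omega) hrp (halt hrp)

theorem perp_altT_iff {F : Type v} [Field F] [CharP F 2] {V : Type u} [AddCommGroup V]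
    [Module F V] [FiniteDimensional F V] (D : InvData F V) (u : V)
    (hgood : (∀ z, D.f u z = 0 → D.f (D.N u) z = 0 → D.f z (D.t z) = 0) →
        (∀ z, D.f u z = 0 → D.f (D.N u) z = 0 → D.t z = z))
    (hH : ∀ x ∈ span F (range ![u, D.N u]), D.t x ∈ span F (range ![u, D.N u]))
    (hnd : ∀ x ∈ span F (range ![u, D.N u]),
      (∀ y ∈ span F (range ![u, D.N u]), D.f x y = 0) → x = 0) :
    (D.perpData _ hH hnd).altT ↔ (D.perpData _ hH hnd).rk = 0 := by
  constructor
  · intro h
    rw [rk_eq_zero_iff]
    have hmem : ∀ z : D.perp (span F (range ![u, D.N u])),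
        D.f u z = 0 ∧ D.f (D.N u) z = 0 := by
      intro z
      have := (D.mem_perp_span _ _).1 z.2
      exact ⟨this 0, this 1⟩
    have h1 : ∀ z, D.f u z = 0 → D.f (D.N u) z = 0 → D.f z (D.t z) = 0 := by
      intro z hz1 hz2
      have hz : z ∈ D.perp (span F (range ![u, D.N u])) := by
        rw [mem_perp_span]
        intro i
        fin_cases i
        · exact hz1
        · exact hz2
      exact h ⟨z, hz⟩
    intro z
    apply Subtype.ext
    exact hgood h1 z (hmem z).1 (hmem z).2
  · exact altT_of_rk_zero _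

theorem classify {F : Type v} [Field F] [Finite F] [CharP F 2] (n : ℕ) : Classify.{u} F n := by
  induction n using Nat.strong_induction_on with
  | _ n IH =>
  intro V V' _ _ _ _ _ _ D D' hn hn' hrk halt
  by_cases h0 : D.rk = 0
  · have h0' : D'.rk = 0 := hrk ▸ h0
    rcases Nat.eq_zero_or_pos n with hz | hpos
    · subst hz
      have : Subsingleton V := (finrank_zero_iff (R := F)).1 hn
      have : Subsingleton V' := (finrank_zero_iff (R := F)).1 hn'
      refine ⟨LinearEquiv.ofFinrankEq V V' (hn.trans hn'.symm), ?_, ?_⟩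
      · intro u v
        rw [Subsingleton.elim u 0]
        simp
      · intro v
        exact Subsingleton.elim _ _
    · obtain ⟨b, hG, hT⟩ := D.exists_hyp h0 (hn ▸ hpos)
      obtain ⟨b', hG', hT'⟩ := D'.exists_hyp h0' (hn' ▸ hpos)
      apply peel_step IH D D' hn hn' hrk (by norm_num) b b' (G2 F) (T1 F) hG hG' G2_nd hT hT'
      intro hrp
      have hr := D.rk_add (span F (range b)) (D.span_inv b (T1 F) hT) (D.span_nd b (G2 F) hG G2_nd)
      have hr' := D'.rk_add (span F (range b')) (D'.span_inv b' (T1 F) hT')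
        (D'.span_nd b' (G2 F) hG' G2_nd)
      exact ⟨fun _ => altT_of_rk_zero _ (by omega), fun _ => altT_of_rk_zero _ (by omega)⟩
  · by_cases ha : D.altT
    · have ha' := halt.1 ha
      obtain ⟨b, hG, hT⟩ := D.exists_blockII h0 ha
      obtain ⟨b', hG', hT'⟩ := D'.exists_blockII (hrk ▸ h0) ha'
      apply peel_step IH D D' hn hn' hrk (by norm_num) b b' (G4 F) (TII F) hG hG' G4_nd hT hT'
      intro _
      exact ⟨fun _ => D'.altT_perp _ _ _ ha', fun _ => D.altT_perp _ _ _ ha⟩
    · have ha' : ¬ D'.altT := fun h => ha (halt.2 h)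
      obtain ⟨u, hu, hgood⟩ := D.good_exists ha
      obtain ⟨u', hu', hgood'⟩ := D'.good_exists ha'
      obtain ⟨hG, hT⟩ := D.blockI u hu
      obtain ⟨hG', hT'⟩ := D'.blockI u' hu'
      apply peel_step IH D D' hn hn' hrk (by norm_num) _ _ (G2 F) (TI F) hG hG' G2_nd hT hT'
      intro hrp
      rw [perp_altT_iff D u hgood, perp_altT_iff D' u' hgood', hrp]

end InvData

end Cfsg.Agent.Helper36
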