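import Mathlib
import Cfsg.Agent.Helper16.NGDefs
import Cfsg.Agent.Helper57.NGKEYA

/-!
# CALL S4404 (helper16), piece K2 (double by helper36): `M` is generated by the fixed points of
the hyperplanes of `A ≅ r³` (coprime generation, for `M` an elementary abelian 2-group).
-/

set_option autoImplicit false

namespace Cfsg.Agent.Helper36.NGK2

open Cfsg.Agent.Helper16.NG

variable {S : Type*} [Group S]

/-- K2: `M` is generated by the fixed points of the hyperplanes of `A` -/
theorem ng_gen [Finite S] (M : Subgroup S) [M.Normal] (hcomm : ∀ a ∈ M, ∀ b ∈ M, a * b = b * a)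
    (hsq : ∀ a ∈ M, a ^ 2 = 1) (r : ℕ) [Fact r.Prime] (hr2 : r ≠ 2) (A : Subgroup S)
    (hA : Cfsg.IsElementaryAbelian r A) (hA3 : Nat.card A = r ^ 3) :
    M ≤ ⨆ B : {B : Subgroup S // B ≤ A ∧ Nat.card B = r ^ 2},
      M ⊓ Subgroup.centralizer ((B : Subgroup S) : Set S) := by
  classical
  obtain ⟨hodd, heven⟩ := Cfsg.Agent.Helper57.NGKEYA.ng_hyp_parity r hr2 A hA hA3
  have : Fintype S := Fintype.ofFinite S
  have : Fintype (Subgroup S) := Fintype.ofFinite _
  letI : CommGroup ↥M := { (inferInstance : Group ↥M) with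
    mul_comm := fun a b => Subtype.ext (hcomm a a.2 b b.2) }
  have hsqM : ∀ n : ↥M, n ^ 2 = 1 := fun n => Subtype.ext (hsq n n.2)
  let H : Finset (Subgroup S) := Finset.univ.filter (fun B => B ≤ A ∧ Nat.card B = r ^ 2)
  have hHcard : Odd H.card := by
    have h1 : Nat.card {B : Subgroup S // B ≤ A ∧ Nat.card B = r ^ 2} = H.card := by
      rw [Nat.card_eq_fintype_card, Fintype.card_subtype]
    rwa [← h1]
  have hHeven : ∀ a : S, a ≠ 1 → Even (H.filter (fun B => a ∈ B)).card := by
    intro a ha1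
    by_cases haA : a ∈ A
    · have h1 : Nat.card {B : Subgroup S // B ≤ A ∧ Nat.card B = r ^ 2 ∧ a ∈ B} =
          (H.filter (fun B => a ∈ B)).card := by
        rw [Nat.card_eq_fintype_card, Fintype.card_subtype]
        congr 1
        ext B
        simp [H, and_assoc]
      rw [← h1]
      exact heven a haA ha1
    · have h1 : H.filter (fun B => a ∈ B) = ∅ := by
        apply Finset.filter_eq_empty_iff.mpr
        intro B hB haB
        have hB' : B ≤ A ∧ Nat.card B = r ^ 2 := by simpa [H] using hB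
        exact haA (hB'.1 haB)
      rw [h1]
      simp
  -- the conjugation action on `M`
  let c : S → ↥M → ↥M := fun a n => MulAut.conjNormal a n
  have hc1 : ∀ n, c 1 n = n := fun n => by simp [c]
  have hcc : ∀ a b n, c a (c b n) = c (a * b) n := fun a b n => by simp [c, map_mul]
  have hcm : ∀ a (s : Finset S) (f : S → ↥M), c a (∏ b ∈ s, f b) = ∏ b ∈ s, c a (f b) :=
    fun a s f => map_prod (MulAut.conjNormal a) f s
  have hcv : ∀ a (n : ↥M), ((c a n : ↥M) : S) = a * n * a⁻¹ :=
    fun a n => MulAut.conjNormal_apply a n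
  -- the double count
  have hkey : ∀ n : ↥M, ∏ B ∈ H, ∏ b ∈ Finset.univ.filter (fun b => b ∈ B), c b n = n := by
    intro n
    have h1 : ∏ B ∈ H, ∏ b ∈ Finset.univ.filter (fun b => b ∈ B), c b n
        = ∏ b : S, ∏ B ∈ H.filter (fun B => b ∈ B), c b n := by
      simp_rw [Finset.prod_filter]
      exact Finset.prod_comm
    rw [h1]
    simp_rw [Finset.prod_const]
    rw [← Finset.prod_erase_mul _ _ (Finset.mem_univ (1 : S))]
    have h2 : ∀ b ∈ Finset.univ.erase (1 : S), c b n ^ (H.filter (fun B => b ∈ B)).card = 1 := by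
      intro b hb
      obtain ⟨k, hk⟩ := hHeven b (Finset.ne_of_mem_erase hb)
      rw [hk, ← two_mul, pow_mul, hsqM, one_pow]
    rw [Finset.prod_eq_one h2, one_mul, hc1]
    have h3 : H.filter (fun B => (1 : S) ∈ B) = H :=
      Finset.filter_true_of_mem (fun B _ => one_mem B)
    rw [h3]
    obtain ⟨k, hk⟩ := hHcard
    rw [hk, pow_succ, pow_mul, hsqM, one_pow, one_mul]
  intro m hm
  have hmem : ∀ B ∈ H,
      ((∏ b ∈ Finset.univ.filter (fun b => b ∈ B), c b ⟨m, hm⟩ : ↥M) : S) ∈
        ⨆ B : {B : Subgroup S // B ≤ A ∧ Nat.card B = r ^ 2},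
          M ⊓ Subgroup.centralizer ((B : Subgroup S) : Set S) := by
    intro B hB
    have hB' : B ≤ A ∧ Nat.card B = r ^ 2 := by simpa [H] using hB
    have hle : M ⊓ Subgroup.centralizer (B : Set S) ≤
        ⨆ B : {B : Subgroup S // B ≤ A ∧ Nat.card B = r ^ 2},
          M ⊓ Subgroup.centralizer ((B : Subgroup S) : Set S) :=
      le_iSup (fun B : {B : Subgroup S // B ≤ A ∧ Nat.card B = r ^ 2} =>
        M ⊓ Subgroup.centralizer ((B : Subgroup S) : Set S)) ⟨B, hB'⟩
    apply hle
    refine Subgroup.mem_inf.mpr ⟨Subtype.property _, ?_⟩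
    rw [Subgroup.mem_centralizer_iff]
    intro b0 hb0
    have hb0' : b0 ∈ B := hb0
    have hfix : c b0 (∏ b ∈ Finset.univ.filter (fun b => b ∈ B), c b ⟨m, hm⟩) =
        ∏ b ∈ Finset.univ.filter (fun b => b ∈ B), c b ⟨m, hm⟩ := by
      rw [hcm]
      simp_rw [hcc]
      apply Finset.prod_bij (fun b _ => b0 * b)
      · intro b hb
        simp only [Finset.mem_filter, Finset.mem_univ, true_and] at hb ⊢
        exact mul_mem hb0' hb
      · intro b1 _ b2 _ h
        exact mul_left_cancel h
      · intro b hb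
        simp only [Finset.mem_filter, Finset.mem_univ, true_and] at hb
        refine ⟨b0⁻¹ * b, ?_, ?_⟩
        · simp only [Finset.mem_filter, Finset.mem_univ, true_and]
          exact mul_mem (inv_mem hb0') hb
        · simp
      · intro b hb
        rfl
    have h5 := congrArg Subtype.val hfix
    rw [hcv] at h5
    set e : S := ((∏ b ∈ Finset.univ.filter (fun b => b ∈ B), c b ⟨m, hm⟩ : ↥M) : S) with he
    calc b0 * e = (b0 * e * b0⁻¹) * b0 := by group
      _ = e * b0 := by rw [h5]
  have hfin : ((∏ B ∈ H, ∏ b ∈ Finset.univ.filter (fun b => b ∈ B), c b ⟨m, hm⟩ : ↥M) : S) ∈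
      ⨆ B : {B : Subgroup S // B ≤ A ∧ Nat.card B = r ^ 2},
        M ⊓ Subgroup.centralizer ((B : Subgroup S) : Set S) := by
    apply Finset.prod_induction _ (fun n : ↥M => (n : S) ∈
      ⨆ B : {B : Subgroup S // B ≤ A ∧ Nat.card B = r ^ 2},
        M ⊓ Subgroup.centralizer ((B : Subgroup S) : Set S))
    · intro a b ha hb
      exact mul_mem ha hb
    · exact one_mem _
    · intro B hB
      exact hmem B hB
  rw [hkey] at hfin
  exact hfin

end Cfsg.Agent.Helper36.NGK2
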