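import Mathlib
import Cfsg.Agent.Helper16.NGDefs

/-!
# CALL S4404 (helper16), piece KEY: `ng_key`

`V = [x, M]` is centralized by a subgroup of order `≥ r²` of the `x`-invariant elementary abelian
group `A` of order `r³`.  `ng_key_of` takes the pieces FACTS (`ng_V_irred`), K1 (`ng_noninv`) and
K2 (`ng_gen`) as hypotheses.
-/

set_option autoImplicit false

namespace Cfsg.Agent.Helper36.NGKEY

open Cfsg.Agent.Helper16.NG

variable {S : Type*} [Group S]

/-- A subgroup of exponent `r` and order at least `r²` is not cyclic. -/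
theorem not_cyclic_of_exp {H : Subgroup S} (r : ℕ) (hr : r.Prime) (hexp : ∀ a ∈ H, a ^ r = 1)
    (hcard : r ^ 2 ≤ Nat.card H) : ¬ IsCyclic ↥H := by
  intro hc
  have h1 : Monoid.exponent ↥H = Nat.card ↥H := IsCyclic.exponent_eq_card
  have h2 : Monoid.exponent ↥H ∣ r :=
    Monoid.exponent_dvd_of_forall_pow_eq_one (fun a => Subtype.ext (by simpa using hexp a a.2))
  rw [h1] at h2
  have h3 := Nat.le_of_dvd hr.pos h2
  have h4 : r < r ^ 2 := by
    have := hr.one_lt
    nlinarith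
  omega

/-- A subgroup normalized by `x` is normalized by `x⁻¹` (`x` has finite order). -/
theorem inv_conj_mem {x : S} (hx : 0 < orderOf x) {B : Subgroup S}
    (hxB : ∀ b ∈ B, x * b * x⁻¹ ∈ B) : ∀ b ∈ B, x⁻¹ * b * x ∈ B := by
  have hpow : ∀ j : ℕ, ∀ b ∈ B, x ^ j * b * (x ^ j)⁻¹ ∈ B := by
    intro j
    induction j with
    | zero => intro b hb; simpa using hb
    | succ j ih =>
      intro b hb
      have h1 := hxB _ (ih b hb)
      have e : x ^ (j + 1) * b * (x ^ (j + 1))⁻¹ = x * (x ^ j * b * (x ^ j)⁻¹) * x⁻¹ := by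
        rw [pow_succ']; group
      rw [e]
      exact h1
  have hinv : x ^ (orderOf x - 1) = x⁻¹ := by
    apply eq_inv_of_mul_eq_one_left
    rw [← pow_succ, Nat.sub_add_cancel hx, pow_orderOf_eq_one]
  intro b hb
  have h2 := hpow (orderOf x - 1) b hb
  rw [hinv, inv_inv] at h2
  exact h2

/-- For an `x`-invariant subgroup `B`: `x` centralizes `C_M(B)`, or `V ≤ C(B)`. -/
theorem key_alt {M V : Subgroup S} {x : S} (h : Cfg M V x)
    (hirred : ∀ K : Subgroup S, K ≤ V → (∀ k ∈ K, x * k * x⁻¹ ∈ K) → K = ⊥ ∨ K = V)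
    (B : Subgroup S) (hxB : ∀ b ∈ B, x * b * x⁻¹ ∈ B) :
    (∀ m ∈ M ⊓ Subgroup.centralizer (B : Set S), x * m * x⁻¹ * m⁻¹ = 1) ∨
      V ≤ Subgroup.centralizer (B : Set S) := by
  have hMn := h.normal
  have hx0 : 0 < orderOf x := by
    obtain ⟨k, hk⟩ := h.x3
    rw [hk]; positivity
  have hxB' := inv_conj_mem hx0 hxB
  have hNx : ∀ m ∈ M ⊓ Subgroup.centralizer (B : Set S),
      x * m * x⁻¹ ∈ M ⊓ Subgroup.centralizer (B : Set S) := by
    intro m hm
    have hm' := Subgroup.mem_inf.mp hm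
    refine Subgroup.mem_inf.mpr ⟨hMn.conj_mem m hm'.1 x, ?_⟩
    rw [Subgroup.mem_centralizer_iff]
    intro b hb
    have h1 := (Subgroup.mem_centralizer_iff.mp hm'.2) (x⁻¹ * b * x) (hxB' b hb)
    calc b * (x * m * x⁻¹) = x * ((x⁻¹ * b * x) * m) * x⁻¹ := by group
      _ = x * (m * (x⁻¹ * b * x)) * x⁻¹ := by rw [h1]
      _ = x * m * x⁻¹ * b := by group
  set K : Subgroup S :=
    Subgroup.closure {u : S | ∃ m ∈ M ⊓ Subgroup.centralizer (B : Set S), u = x * m * x⁻¹ * m⁻¹}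
    with hKdef
  have hKV : K ≤ V := by
    rw [hKdef, Subgroup.closure_le]
    rintro u ⟨m, hm, rfl⟩
    exact (h.hV _).2 ⟨m, (Subgroup.mem_inf.mp hm).1, rfl⟩
  have hKN : K ≤ M ⊓ Subgroup.centralizer (B : Set S) := by
    rw [hKdef, Subgroup.closure_le]
    rintro u ⟨m, hm, rfl⟩
    exact Subgroup.mul_mem _ (hNx m hm) (Subgroup.inv_mem _ hm)
  have hKx : ∀ k ∈ K, x * k * x⁻¹ ∈ K := by
    intro k hk
    rw [hKdef] at hk
    induction hk using Subgroup.closure_induction with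
    | mem u hu =>
      obtain ⟨m, hm, rfl⟩ := hu
      apply Subgroup.subset_closure
      refine ⟨x * m * x⁻¹, hNx m hm, ?_⟩
      group
    | one => simpa using Subgroup.one_mem K
    | mul a b _ _ iha ihb =>
      have e : x * (a * b) * x⁻¹ = (x * a * x⁻¹) * (x * b * x⁻¹) := by group
      rw [e]
      exact Subgroup.mul_mem _ iha ihb
    | inv a _ iha =>
      have e : x * a⁻¹ * x⁻¹ = (x * a * x⁻¹)⁻¹ := by group
      rw [e]
      exact Subgroup.inv_mem _ iha
  rcases hirred K hKV hKx with hK | hK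
  · left
    intro m hm
    have h1 : x * m * x⁻¹ * m⁻¹ ∈ K := Subgroup.subset_closure ⟨m, hm, rfl⟩
    rw [hK] at h1
    exact Subgroup.mem_bot.mp h1
  · right
    rw [← hK]
    exact hKN.trans inf_le_right

/-- KEY, with the pieces FACTS (`ng_V_irred`), K1, K2 as hypotheses. -/
theorem ng_key_of [Finite S] {M V : Subgroup S} {x : S} (h : Cfg M V x) (r : ℕ) [Fact r.Prime]
    (A : Subgroup S) (hA : Cfsg.IsElementaryAbelian r A) (hA3 : Nat.card A = r ^ 3)
    (hxA : ∀ a ∈ A, x * a * x⁻¹ ∈ A)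
    (hirred : ∀ K : Subgroup S, K ≤ V → (∀ k ∈ K, x * k * x⁻¹ ∈ K) → K = ⊥ ∨ K = V)
    (hK1 : ∀ B : Subgroup S, B ≤ A → Nat.card B = r ^ 2 → (¬ ∀ b ∈ B, x * b * x⁻¹ ∈ B) →
      M ⊓ Subgroup.centralizer (B : Set S) ≤ Subgroup.centralizer (A : Set S))
    (hK2 : M ≤ ⨆ B : {B : Subgroup S // B ≤ A ∧ Nat.card B = r ^ 2},
      M ⊓ Subgroup.centralizer ((B : Subgroup S) : Set S)) :
    ¬ IsCyclic ↥(A ⊓ Subgroup.centralizer (V : Set S)) := by
  have hr : r.Prime := Fact.out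
  intro hcyc
  -- a subgroup `B ≤ A` of order `≥ r²` centralizing `V` is impossible
  have hbad : ∀ B : Subgroup S, B ≤ A → r ^ 2 ≤ Nat.card B →
      V ≤ Subgroup.centralizer (B : Set S) → False := by
    intro B hBA hBc hVB
    have hle : B ≤ A ⊓ Subgroup.centralizer (V : Set S) := by
      intro b hb
      refine Subgroup.mem_inf.mpr ⟨hBA hb, ?_⟩
      rw [Subgroup.mem_centralizer_iff]
      intro v hv
      exact ((Subgroup.mem_centralizer_iff.mp (hVB hv)) b hb).symm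
    refine not_cyclic_of_exp r hr (fun a ha => hA.2 a (Subgroup.mem_inf.mp ha).1) ?_ hcyc
    exact hBc.trans (Subgroup.card_le_of_le hle)
  -- `x` centralizes `C_M(A)`
  have hA0 : ∀ m ∈ M ⊓ Subgroup.centralizer (A : Set S), x * m * x⁻¹ * m⁻¹ = 1 := by
    rcases key_alt h hirred A hxA with h1 | h1
    · exact h1
    · exact absurd (hbad A le_rfl (by rw [hA3]; exact Nat.pow_le_pow_right hr.pos (by norm_num)) h1)
        (fun hf => hf)
  -- `x` centralizes `C_M(B)` for every hyperplane `B`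
  have hB0 : ∀ B : {B : Subgroup S // B ≤ A ∧ Nat.card B = r ^ 2},
      M ⊓ Subgroup.centralizer ((B : Subgroup S) : Set S) ≤ Subgroup.centralizer ({x} : Set S) := by
    rintro ⟨B, hBA, hBc⟩ m hm
    have h1 : x * m * x⁻¹ * m⁻¹ = 1 := by
      by_cases hxB : ∀ b ∈ B, x * b * x⁻¹ ∈ B
      · rcases key_alt h hirred B hxB with h2 | h2
        · exact h2 m hm
        · exact absurd (hbad B hBA (le_of_eq hBc.symm) h2) (fun hf => hf)
      · exact hA0 m (Subgroup.mem_inf.mpr ⟨(Subgroup.mem_inf.mp hm).1, hK1 B hBA hBc hxB hm⟩)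
    rw [Subgroup.mem_centralizer_iff]
    intro y hy
    rw [Set.mem_singleton_iff] at hy
    subst hy
    calc y * m = (y * m * y⁻¹ * m⁻¹) * (m * y) := by group
      _ = m * y := by rw [h1, one_mul]
  have hMx : M ≤ Subgroup.centralizer ({x} : Set S) := hK2.trans (iSup_le hB0)
  -- so `V` is trivial
  have hV1 : ∀ v ∈ V, v = 1 := by
    intro v hv
    obtain ⟨m, hm, rfl⟩ := (h.hV v).1 hv
    have h1 := (Subgroup.mem_centralizer_iff.mp (hMx hm)) x (Set.mem_singleton x)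
    calc x * m * x⁻¹ * m⁻¹ = (x * m) * x⁻¹ * m⁻¹ := by group
      _ = (m * x) * x⁻¹ * m⁻¹ := by rw [h1]
      _ = 1 := by group
  have hVbot : V = ⊥ := by
    rw [eq_bot_iff]
    intro v hv
    exact Subgroup.mem_bot.mpr (hV1 v hv)
  have hc := h.card
  rw [hVbot] at hc
  simp at hc

end Cfsg.Agent.Helper36.NGKEY
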