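import Mathlib
import Cfsg.Agent.Helper16.NGDefs
import Cfsg.Agent.Helper36.NGKEY
import Cfsg.Agent.Helper36.NGFACTS
import Cfsg.Agent.Helper36.NGK2
import Cfsg.Agent.Helper83.NGK1

/-!
# CALL S4404 (helper16), piece KEY (helper36): verbatim `ng_key`, assembled from
`ng_key_of` (Helper36.NGKEY), FACTS (Helper36.NGFACTS), K1 (Helper83.NGK1) and K2 (Helper36.NGK2).
-/

set_option autoImplicit false

namespace Cfsg.Agent.Helper36.NGKEY2

open Cfsg.Agent.Helper16.NG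

variable {S : Type*} [Group S]

/-- KEY (from K1, K2, FACTS) -/
theorem ng_key [Finite S] {M V : Subgroup S} {x : S} (h : Cfg M V x) (r : ℕ) [Fact r.Prime] (hr2 : r ≠ 2)
    (A : Subgroup S) (hA : Cfsg.IsElementaryAbelian r A) (hA3 : Nat.card A = r ^ 3)
    (hxA : ∀ a ∈ A, x * a * x⁻¹ ∈ A) :
    ¬ IsCyclic ↥(A ⊓ Subgroup.centralizer (V : Set S)) := by
  haveI := h.normal
  exact Cfsg.Agent.Helper36.NGKEY.ng_key_of h r A hA hA3 hxA
    (Cfsg.Agent.Helper36.NGFACTS.ng_V_irred h)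
    (fun B hBA hBc hxB => Cfsg.Agent.Helper83.NGK1.ng_noninv h r hr2 A hA hA3 hxA B hBA hBc hxB)
    (Cfsg.Agent.Helper36.NGK2.ng_gen M h.comm h.sq r hr2 A hA hA3)

end Cfsg.Agent.Helper36.NGKEY2
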