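import Cfsg.Agent.Helper36.ArtinSchreier

set_option autoImplicit false

namespace Cfsg.Agent.Helper36

open Module Matrix

section

variable {F : Type*} [Field F] [Fintype F] [CharP F 2]

/-- The square of the character sum of a nondegenerate quadratic form is the number of vectors. -/
theorem charSum_sq {V : Type*} [AddCommGroup V] [Module F V] [Fintype V]
    (Q : V → F) (hQ0 : Q 0 = 0) (B : V →ₗ[F] V →ₗ[F] F)
    (hB : ∀ u v, Q (u + v) = Q u + Q v + B u v) (hnd : ∀ u, (∀ v, B u v = 0) → u = 0) :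
    (∑ v, asChar (Q v)) * (∑ v, asChar (Q v)) = Fintype.card V := by
  classical
  rw [Finset.sum_mul]
  have h1 : ∀ v : V, asChar (Q v) * ∑ w, asChar (Q w)
      = ∑ u, asChar (Q u) * asChar (B u v) := by
    intro v
    rw [← Equiv.sum_comp (Equiv.addRight v) (fun w => asChar (Q w)), Finset.mul_sum]
    apply Finset.sum_congr rfl
    intro u _
    show asChar (Q v) * asChar (Q (u + v)) = _
    rw [hB, asChar_add, asChar_add]
    have := asChar_sq_eq_one (Q v)
    linear_combination (asChar (Q u) * asChar (B u v)) * this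
  rw [Finset.sum_congr rfl (fun v _ => h1 v), Finset.sum_comm]
  have h2 : ∀ u : V, ∑ v, asChar (Q u) * asChar (B u v)
      = if u = 0 then (Fintype.card V : ℤ) else 0 := by
    intro u
    rw [← Finset.mul_sum]
    split_ifs with hu
    · subst hu
      simp [hQ0, asChar_zero]
    · rw [asChar_sum_linear (B u), mul_zero]
      intro h0
      apply hu
      apply hnd
      intro v
      rw [h0]
      rfl
  rw [Finset.sum_congr rfl (fun u _ => h2 u)]
  simp

/-- Matrix form: an element conjugating `T` to `S` and preserving the polar form can be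
corrected to an isometry of the quadratic form. -/
theorem quad_conj_mat {ι : Type} [Fintype ι] [DecidableEq ι] (Q : (ι → F) → F)
    (hQsmul : ∀ (c : F) v, Q (c • v) = c * c * Q v)
    (B : (ι → F) →ₗ[F] (ι → F) →ₗ[F] F) (hB : ∀ u v, Q (u + v) = Q u + Q v + B u v)
    (hnd : ∀ u, (∀ v, B u v = 0) → u = 0)
    (T S G Tinv Ginv : Matrix ι ι F) (hTT : T * Tinv = 1) (hGG : Ginv * G = 1)
    (hGG' : G * Ginv = 1)
    (ht : ∀ v, Q (T *ᵥ v) = Q v) (hs : ∀ v, Q (S *ᵥ v) = Q v)
    (hg : ∀ u v, B (G *ᵥ u) (G *ᵥ v) = B u v) (hconj : G * T = S * G) :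
    ∃ M : Matrix ι ι F, M * M = 1 ∧ (∀ v, Q ((G * M) *ᵥ v) = Q v) ∧
      (G * M) * T = S * (G * M) := by
  classical
  have hQ0 : Q 0 = 0 := by
    have := hQsmul 0 0
    simpa using this
  have hBsymm : ∀ u v, B u v = B v u := by
    intro u v
    have h1 := hB u v
    have h2 := hB v u
    rw [add_comm v u] at h2
    have : Q u + Q v + B u v = Q v + Q u + B v u := h1.symm.trans h2
    linear_combination this
  have hBalt : ∀ u, B u u = 0 := by
    intro u
    have h1 := hB u u
    have h2 : u + u = 0 := by rw [← two_smul F u, CharTwo.two_eq_zero, zero_smul]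
    rw [h2, hQ0, CharTwo.add_self_eq_zero (Q u), zero_add] at h1
    exact h1.symm
  have htB : ∀ u v, B (T *ᵥ u) (T *ᵥ v) = B u v := by
    intro u v
    have h1 := hB (T *ᵥ u) (T *ᵥ v)
    rw [← Matrix.mulVec_add, ht, ht, ht, hB u v] at h1
    exact (add_left_cancel h1).symm
  have hDadd : ∀ u v, Q (G *ᵥ (u + v)) + Q (u + v)
      = (Q (G *ᵥ u) + Q u) + (Q (G *ᵥ v) + Q v) := by
    intro u v
    rw [Matrix.mulVec_add, hB, hB, hg]
    have := CharTwo.add_self_eq_zero (B u v)
    linear_combination this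
  have hDsmul : ∀ (c : F) v, Q (G *ᵥ (c • v)) + Q (c • v) = c * c * (Q (G *ᵥ v) + Q v) := by
    intro c v
    rw [Matrix.mulVec_smul, hQsmul, hQsmul]
    ring
  haveI : ExpChar F 2 := ExpChar.prime Nat.prime_two
  let L : (ι → F) →ₗ[F] F :=
    { toFun := fun v => (frobeniusEquiv F 2).symm (Q (G *ᵥ v) + Q v)
      map_add' := fun u v => by rw [hDadd, map_add]
      map_smul' := fun c v => by
        rw [hDsmul, map_mul, RingHom.id_apply, smul_eq_mul]
        congr 1
        rw [← pow_two, ← frobenius_def, frobeniusEquiv_symm_apply_frobenius] }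
  have hL : ∀ v, L v * L v = Q (G *ᵥ v) + Q v := by
    intro v
    show (frobeniusEquiv F 2).symm (Q (G *ᵥ v) + Q v)
      * (frobeniusEquiv F 2).symm (Q (G *ᵥ v) + Q v) = _
    rw [← pow_two, ← frobenius_def, frobenius_apply_frobeniusEquiv_symm]
  have hinj : Function.Injective B.flip := by
    rw [← LinearMap.ker_eq_bot, LinearMap.ker_eq_bot']
    intro a ha
    apply hnd
    intro v
    rw [hBsymm]
    exact LinearMap.congr_fun ha v
  have hsurj : Function.Surjective B.flip :=
    (LinearMap.injective_iff_surjective_of_finrank_eq_finrank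
      (Subspace.dual_finrank_eq).symm).1 hinj
  obtain ⟨a, ha⟩ := hsurj L
  have haL : ∀ v, B v a = L v := fun v => LinearMap.congr_fun ha v
  have hDa : ∀ v, Q (G *ᵥ v) = Q v + B v a * B v a := by
    intro v
    have h1 := hL v
    rw [← haL] at h1
    have h2 := CharTwo.add_self_eq_zero (Q v)
    linear_combination (-1 : F) * h1 - h2
  have hTa : T *ᵥ a = a := by
    have h1 : ∀ v, B (T *ᵥ v) a = B v a := by
      intro v
      have e1 := hDa (T *ᵥ v)
      have e2 := hDa v
      have e3 : Q (G *ᵥ (T *ᵥ v)) = Q (G *ᵥ v) := by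
        rw [Matrix.mulVec_mulVec, hconj, ← Matrix.mulVec_mulVec, hs]
      rw [e3, e2, ht] at e1
      have e4 : B v a * B v a = B (T *ᵥ v) a * B (T *ᵥ v) a := add_left_cancel e1
      have e5 : (B v a + B (T *ᵥ v) a) * (B v a + B (T *ᵥ v) a) = 0 := by
        rw [CharTwo.add_mul_self, e4]
        exact CharTwo.add_self_eq_zero _
      have e6 := mul_self_eq_zero.1 e5
      exact (CharTwo.add_eq_zero.1 e6).symm
    have h2 : ∀ w, B w (T *ᵥ a + a) = 0 := by
      intro w
      have hw : T *ᵥ (Tinv *ᵥ w) = w := by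
        rw [Matrix.mulVec_mulVec, hTT, Matrix.one_mulVec]
      rw [← hw, map_add, htB, h1]
      exact CharTwo.add_self_eq_zero _
    have h3 : T *ᵥ a + a = 0 := by
      apply hnd
      intro v
      rw [hBsymm]
      exact h2 v
    have h4 : a + a = 0 := by rw [← two_smul F a, CharTwo.two_eq_zero, zero_smul]
    calc T *ᵥ a = (T *ᵥ a + a) + a := by rw [add_assoc, h4, add_zero]
      _ = a := by rw [h3, zero_add]
  -- the character sum
  have hS : (∑ v, asChar (Q v)) = asChar (Q a) * ∑ v, asChar (Q v) := by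
    let E : (ι → F) ≃ (ι → F) :=
      { toFun := fun v => G *ᵥ v
        invFun := fun v => Ginv *ᵥ v
        left_inv := fun v => by
          show Ginv *ᵥ (G *ᵥ v) = v
          rw [Matrix.mulVec_mulVec, hGG, Matrix.one_mulVec]
        right_inv := fun v => by
          show G *ᵥ (Ginv *ᵥ v) = v
          rw [Matrix.mulVec_mulVec, hGG', Matrix.one_mulVec] }
    have e1 : ∑ v, asChar (Q (G *ᵥ v)) = ∑ v, asChar (Q v) :=
      Equiv.sum_comp E (fun v => asChar (Q v))
    have e2 : ∑ v, asChar (Q (G *ᵥ v)) = ∑ v, asChar (Q a) * asChar (Q (v + a)) := by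
      apply Finset.sum_congr rfl
      intro v _
      rw [hDa, asChar_add, asChar_mul_self, hB v a, asChar_add, asChar_add]
      have := asChar_sq_eq_one (Q a)
      linear_combination (- asChar (Q v) * asChar (B v a)) * this
    calc ∑ v, asChar (Q v) = ∑ v, asChar (Q (G *ᵥ v)) := e1.symm
      _ = ∑ v, asChar (Q a) * asChar (Q (v + a)) := e2
      _ = asChar (Q a) * ∑ v, asChar (Q (v + a)) := by rw [Finset.mul_sum]
      _ = asChar (Q a) * ∑ v, asChar (Q v) :=
        congrArg _ (Equiv.sum_comp (Equiv.addRight a) (fun v => asChar (Q v)))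
  have hSne : (∑ v, asChar (Q v)) ≠ 0 := by
    intro h0
    have h1 := charSum_sq Q hQ0 B hB hnd
    rw [h0, mul_zero] at h1
    have h2 : Fintype.card (ι → F) = 0 := by exact_mod_cast h1.symm
    exact Fintype.card_ne_zero h2
  have hχ : asChar (Q a) = 1 := by
    have h1 : (asChar (Q a) - 1) * ∑ v, asChar (Q v) = 0 := by linear_combination -hS
    rcases mul_eq_zero.1 h1 with h | h
    · omega
    · exact absurd h hSne
  obtain ⟨ν0, hν0⟩ := (mem_asSub (Q a)).1 ((asChar_eq_one_iff _).1 hχ)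
  obtain ⟨ν, hν, hνne⟩ : ∃ ν : F, ν * ν + ν = Q a ∧ ν ≠ 0 := by
    by_cases h0 : ν0 = 0
    · refine ⟨1, ?_, one_ne_zero⟩
      rw [← hν0, h0, mul_one, mul_zero, add_zero]
      exact CharTwo.add_self_eq_zero 1
    · exact ⟨ν0, hν0, h0⟩
  have hμ : ν⁻¹ * ν⁻¹ * Q a + ν⁻¹ = 1 := by
    have e : ν⁻¹ * ν = 1 := inv_mul_cancel₀ hνne
    rw [← hν]
    linear_combination (ν⁻¹ * ν + 1 + ν⁻¹) * e + CharTwo.add_self_eq_zero ν⁻¹
  -- the transvection
  let τ : (ι → F) →ₗ[F] (ι → F) := LinearMap.id + ν⁻¹ • (LinearMap.smulRight (B.flip a) a)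
  have hτ : ∀ v, τ v = v + (ν⁻¹ * B v a) • a := by
    intro v
    show v + ν⁻¹ • (B v a • a) = _
    rw [smul_smul]
  have hBτ : ∀ v, B (τ v) a = B v a := by
    intro v
    rw [hτ, map_add, LinearMap.add_apply, map_smul, LinearMap.smul_apply, hBalt, smul_zero,
      add_zero]
  have hQτ : ∀ v, Q (G *ᵥ (τ v)) = Q v := by
    intro v
    rw [hDa, hBτ, hτ, hB, hQsmul, map_smul, smul_eq_mul]
    have h2 := CharTwo.add_self_eq_zero (B v a * B v a)
    linear_combination (B v a * B v a) * hμ + h2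
  have hτT : ∀ v, τ (T *ᵥ v) = T *ᵥ (τ v) := by
    intro v
    have h1 := htB v a
    rw [hTa] at h1
    rw [hτ, hτ, Matrix.mulVec_add, Matrix.mulVec_smul, hTa, h1]
  have hττ : ∀ v, τ (τ v) = v := by
    intro v
    rw [hτ (τ v), hBτ, hτ, add_assoc, ← add_smul]
    have : ν⁻¹ * B v a + ν⁻¹ * B v a = 0 := CharTwo.add_self_eq_zero _
    rw [this, zero_smul, add_zero]
  obtain ⟨M, hM⟩ : ∃ M : Matrix ι ι F, M = LinearMap.toMatrix' τ := ⟨_, rfl⟩
  have hMv : ∀ v, M *ᵥ v = τ v := by
    intro v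
    rw [hM, ← Matrix.toLin'_apply, Matrix.toLin'_toMatrix']
  have hMM : M * M = 1 := by
    rw [hM, ← LinearMap.toMatrix'_comp, ← LinearMap.toMatrix'_id]
    congr 1
    apply LinearMap.ext
    intro v
    exact hττ v
  have hMT : M * T = T * M := by
    apply Matrix.mulVec_injective
    funext v
    rw [← Matrix.mulVec_mulVec, ← Matrix.mulVec_mulVec, hMv, hMv, hτT]
  refine ⟨M, hMM, ?_, ?_⟩
  · intro v
    rw [← Matrix.mulVec_mulVec, hMv]
    exact hQτ v
  · rw [Matrix.mul_assoc, hMT, ← Matrix.mul_assoc, hconj, Matrix.mul_assoc]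

/-- Two isometries of a nondegenerate quadratic form over a finite field of characteristic two
that are conjugate under the isometry group of the polar form are conjugate by an isometry of
the quadratic form. -/
theorem quad_conj {ι : Type} [Fintype ι] [DecidableEq ι] (Q : (ι → F) → F)
    (hQsmul : ∀ (c : F) v, Q (c • v) = c * c * Q v)
    (B : (ι → F) →ₗ[F] (ι → F) →ₗ[F] F) (hB : ∀ u v, Q (u + v) = Q u + Q v + B u v)
    (hnd : ∀ u, (∀ v, B u v = 0) → u = 0)
    (t s g : GL ι F)
    (ht : ∀ v, Q ((t : Matrix ι ι F) *ᵥ v) = Q v) (hs : ∀ v, Q ((s : Matrix ι ι F) *ᵥ v) = Q v)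
    (hg : ∀ u v, B ((g : Matrix ι ι F) *ᵥ u) ((g : Matrix ι ι F) *ᵥ v) = B u v)
    (hconj : g * t = s * g) :
    ∃ h : GL ι F, (∀ v, Q ((h : Matrix ι ι F) *ᵥ v) = Q v) ∧ h * t = s * h := by
  obtain ⟨M, hMM, hQ, hc⟩ := quad_conj_mat Q hQsmul B hB hnd (t : Matrix ι ι F)
    (s : Matrix ι ι F) (g : Matrix ι ι F) ((t⁻¹ : GL ι F) : Matrix ι ι F)
    ((g⁻¹ : GL ι F) : Matrix ι ι F)
    (by rw [← Units.val_mul, mul_inv_cancel, Units.val_one])
    (by rw [← Units.val_mul, inv_mul_cancel, Units.val_one])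
    (by rw [← Units.val_mul, mul_inv_cancel, Units.val_one])
    ht hs hg (by rw [← Units.val_mul, hconj, Units.val_mul])
  refine ⟨g * ⟨M, M, hMM, hMM⟩, hQ, ?_⟩
  apply Units.ext
  exact hc

end

end Cfsg.Agent.Helper36
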