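import Cfsg.Agent.Helper36.QuadConj
import Cfsg.Prelude.Def_Classical

set_option autoImplicit false

namespace Cfsg.Agent.Helper36

open Module Matrix

section

variable {F : Type*} [Field F] [Fintype F] [CharP F 2]

/-- Conjugacy in the isometry group of a nondegenerate quadratic form over a finite field of
characteristic two is the same as conjugacy under the isometry group of the polar form. -/
theorem isConj_iff_polar {ι : Type} [Fintype ι] [DecidableEq ι] (Q : (ι → F) → F)
    (hQsmul : ∀ (c : F) v, Q (c • v) = c * c * Q v)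
    (B : (ι → F) →ₗ[F] (ι → F) →ₗ[F] F) (hB : ∀ u v, Q (u + v) = Q u + Q v + B u v)
    (hnd : ∀ u, (∀ v, B u v = 0) → u = 0)
    (t s : ↥(Cfsg.isometryGroup F Q)) :
    IsConj t s ↔ ∃ g ∈ Cfsg.preserving (Units.coeHom (Matrix ι ι F))
      (fun u v => Q (u + v) - Q u - Q v), g * (t : GL ι F) * g⁻¹ = (s : GL ι F) := by
  have hiso : ∀ c : ↥(Cfsg.isometryGroup F Q), ∀ v : ι → F,
      Q (((c : GL ι F) : Matrix ι ι F) *ᵥ v) = Q v := fun c v => c.2 v v
  constructor
  · intro h
    rw [isConj_iff] at h
    obtain ⟨c, hc⟩ := h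
    refine ⟨(c : GL ι F), ?_, ?_⟩
    · intro u v
      show Q (((c : GL ι F) : Matrix ι ι F) *ᵥ u + ((c : GL ι F) : Matrix ι ι F) *ᵥ v)
        - Q (((c : GL ι F) : Matrix ι ι F) *ᵥ u) - Q (((c : GL ι F) : Matrix ι ι F) *ᵥ v)
        = Q (u + v) - Q u - Q v
      rw [← Matrix.mulVec_add, hiso, hiso, hiso]
    · rw [← hc]
      rfl
  · rintro ⟨g, hg, hconj⟩
    have hg' : ∀ u v : ι → F, B ((g : Matrix ι ι F) *ᵥ u) ((g : Matrix ι ι F) *ᵥ v) = B u v := by
      intro u v
      have h1 : ∀ x y : ι → F, B x y = Q (x + y) - Q x - Q y := by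
        intro x y
        rw [hB]
        ring
      rw [h1, h1]
      exact hg u v
    have hconj' : g * (t : GL ι F) = (s : GL ι F) * g := by
      rw [← hconj]
      group
    obtain ⟨h, hQ, hc⟩ := quad_conj Q hQsmul B hB hnd (t : GL ι F) (s : GL ι F) g
      (hiso t) (hiso s) hg' hconj'
    have hmem : h ∈ Cfsg.isometryGroup F Q := fun u _ => hQ u
    rw [isConj_iff]
    refine ⟨⟨h, hmem⟩, ?_⟩
    rw [mul_inv_eq_iff_eq_mul]
    exact Subtype.ext hc

/-! ### The plus-type form -/

/-- The polar form of `quadFormPlus`. -/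
def polarPlus (m : ℕ) (F : Type*) [Field F] :
    (Fin m ⊕ Fin m → F) →ₗ[F] (Fin m ⊕ Fin m → F) →ₗ[F] F :=
  LinearMap.mk₂ F
    (fun u v => ∑ i : Fin m, (u (.inl i) * v (.inr i) + v (.inl i) * u (.inr i)))
    (fun u u' v => by
      rw [← Finset.sum_add_distrib]
      apply Finset.sum_congr rfl
      intro i _
      simp only [Pi.add_apply]
      ring)
    (fun c u v => by
      rw [smul_eq_mul, Finset.mul_sum]
      apply Finset.sum_congr rfl
      intro i _
      simp only [Pi.smul_apply, smul_eq_mul]
      ring)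
    (fun u v v' => by
      rw [← Finset.sum_add_distrib]
      apply Finset.sum_congr rfl
      intro i _
      simp only [Pi.add_apply]
      ring)
    (fun c u v => by
      rw [smul_eq_mul, Finset.mul_sum]
      apply Finset.sum_congr rfl
      intro i _
      simp only [Pi.smul_apply, smul_eq_mul]
      ring)

omit [Fintype F] [CharP F 2] in
theorem polarPlus_apply (m : ℕ) (u v : Fin m ⊕ Fin m → F) :
    polarPlus m F u v = ∑ i : Fin m, (u (.inl i) * v (.inr i) + v (.inl i) * u (.inr i)) := rfl

omit [Fintype F] [CharP F 2] in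
theorem quadFormPlus_smul (m : ℕ) (c : F) (v : Fin m ⊕ Fin m → F) :
    Cfsg.quadFormPlus m F (c • v) = c * c * Cfsg.quadFormPlus m F v := by
  unfold Cfsg.quadFormPlus
  rw [Finset.mul_sum]
  apply Finset.sum_congr rfl
  intro i _
  simp only [Pi.smul_apply, smul_eq_mul]
  ring

omit [Fintype F] [CharP F 2] in
theorem quadFormPlus_add (m : ℕ) (u v : Fin m ⊕ Fin m → F) :
    Cfsg.quadFormPlus m F (u + v)
      = Cfsg.quadFormPlus m F u + Cfsg.quadFormPlus m F v + polarPlus m F u v := by
  rw [polarPlus_apply]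
  unfold Cfsg.quadFormPlus
  rw [← Finset.sum_add_distrib, ← Finset.sum_add_distrib]
  apply Finset.sum_congr rfl
  intro i _
  simp only [Pi.add_apply]
  ring

omit [Fintype F] [CharP F 2] in
theorem polarPlus_nd (m : ℕ) (u : Fin m ⊕ Fin m → F) (h : ∀ v, polarPlus m F u v = 0) :
    u = 0 := by
  funext x
  rcases x with i | i
  · have := h (Pi.single (Sum.inr i) 1)
    rw [polarPlus_apply, Finset.sum_eq_single i] at this
    · simpa using this
    · intro j _ hj
      simp [hj]
    · intro hi
      exact absurd (Finset.mem_univ i) hi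
  · have := h (Pi.single (Sum.inl i) 1)
    rw [polarPlus_apply, Finset.sum_eq_single i] at this
    · simpa using this
    · intro j _ hj
      simp [hj]
    · intro hi
      exact absurd (Finset.mem_univ i) hi

/-! ### The minus-type form -/

/-- The polar form of `quadFormMinus` in characteristic two. -/
def polarMinus (m : ℕ) (F : Type*) [Field F] (c : F) :
    ((Fin m ⊕ Fin m) ⊕ Fin 2 → F) →ₗ[F] ((Fin m ⊕ Fin m) ⊕ Fin 2 → F) →ₗ[F] F :=
  LinearMap.mk₂ F
    (fun u v => (∑ i : Fin m, (u (.inl (.inl i)) * v (.inl (.inr i))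
        + v (.inl (.inl i)) * u (.inl (.inr i))))
      + c * (u (.inr 0) * v (.inr 1) + v (.inr 0) * u (.inr 1)))
    (fun u u' v => by
      have : ∀ a b a' b' : F, a + b + (a' + b') = (a + a') + (b + b') := by intros; ring
      rw [this, ← Finset.sum_add_distrib]
      congr 1
      · apply Finset.sum_congr rfl
        intro i _
        simp only [Pi.add_apply]
        ring
      · simp only [Pi.add_apply]
        ring)
    (fun c' u v => by
      rw [smul_eq_mul, mul_add c', Finset.mul_sum]
      congr 1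
      · apply Finset.sum_congr rfl
        intro i _
        simp only [Pi.smul_apply, smul_eq_mul]
        ring
      · simp only [Pi.smul_apply, smul_eq_mul]
        ring)
    (fun u v v' => by
      have : ∀ a b a' b' : F, a + b + (a' + b') = (a + a') + (b + b') := by intros; ring
      rw [this, ← Finset.sum_add_distrib]
      congr 1
      · apply Finset.sum_congr rfl
        intro i _
        simp only [Pi.add_apply]
        ring
      · simp only [Pi.add_apply]
        ring)
    (fun c' u v => by
      rw [smul_eq_mul, mul_add c', Finset.mul_sum]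
      congr 1
      · apply Finset.sum_congr rfl
        intro i _
        simp only [Pi.smul_apply, smul_eq_mul]
        ring
      · simp only [Pi.smul_apply, smul_eq_mul]
        ring)

omit [Fintype F] [CharP F 2] in
theorem polarMinus_apply (m : ℕ) (c : F) (u v : (Fin m ⊕ Fin m) ⊕ Fin 2 → F) :
    polarMinus m F c u v = (∑ i : Fin m, (u (.inl (.inl i)) * v (.inl (.inr i))
        + v (.inl (.inl i)) * u (.inl (.inr i))))
      + c * (u (.inr 0) * v (.inr 1) + v (.inr 0) * u (.inr 1)) := rfl

omit [Fintype F] [CharP F 2] in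
theorem quadFormMinus_smul (m : ℕ) (c d : F) (a : F) (v : (Fin m ⊕ Fin m) ⊕ Fin 2 → F) :
    Cfsg.quadFormMinus m F c d (a • v) = a * a * Cfsg.quadFormMinus m F c d v := by
  unfold Cfsg.quadFormMinus
  rw [mul_add, Finset.mul_sum]
  congr 1
  · apply Finset.sum_congr rfl
    intro i _
    simp only [Pi.smul_apply, smul_eq_mul]
    ring
  · simp only [Pi.smul_apply, smul_eq_mul]
    ring

omit [Fintype F] in
theorem quadFormMinus_add (m : ℕ) (c d : F) (u v : (Fin m ⊕ Fin m) ⊕ Fin 2 → F) :
    Cfsg.quadFormMinus m F c d (u + v)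
      = Cfsg.quadFormMinus m F c d u + Cfsg.quadFormMinus m F c d v + polarMinus m F c u v := by
  rw [polarMinus_apply]
  unfold Cfsg.quadFormMinus
  have h2 : (2 : F) = 0 := CharTwo.two_eq_zero
  have hsum : ∑ i : Fin m, (u + v) (.inl (.inl i)) * (u + v) (.inl (.inr i))
      = (∑ i : Fin m, u (.inl (.inl i)) * u (.inl (.inr i)))
        + (∑ i : Fin m, v (.inl (.inl i)) * v (.inl (.inr i)))
        + ∑ i : Fin m, (u (.inl (.inl i)) * v (.inl (.inr i))
          + v (.inl (.inl i)) * u (.inl (.inr i))) := by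
    rw [← Finset.sum_add_distrib, ← Finset.sum_add_distrib]
    apply Finset.sum_congr rfl
    intro i _
    simp only [Pi.add_apply]
    ring
  rw [hsum]
  simp only [Pi.add_apply]
  linear_combination (u (.inr 0) * v (.inr 0) + d * u (.inr 1) * v (.inr 1)) * h2

omit [Fintype F] [CharP F 2] in
theorem polarMinus_nd (m : ℕ) (c : F) (hc : c ≠ 0) (u : (Fin m ⊕ Fin m) ⊕ Fin 2 → F)
    (h : ∀ v, polarMinus m F c u v = 0) : u = 0 := by
  funext x
  rcases x with (i | i) | j
  · have := h (Pi.single (Sum.inl (Sum.inr i)) 1)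
    rw [polarMinus_apply, Finset.sum_eq_single i] at this
    · simpa using this
    · intro j _ hj
      simp [hj]
    · intro hi
      exact absurd (Finset.mem_univ i) hi
  · have := h (Pi.single (Sum.inl (Sum.inl i)) 1)
    rw [polarMinus_apply, Finset.sum_eq_single i] at this
    · simpa using this
    · intro j _ hj
      simp [hj]
    · intro hi
      exact absurd (Finset.mem_univ i) hi
  · fin_cases j
    · have := h (Pi.single (Sum.inr 1) 1)
      rw [polarMinus_apply] at this
      simpa [hc] using this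
    · have := h (Pi.single (Sum.inr 0) 1)
      rw [polarMinus_apply] at this
      simpa [hc] using this

theorem anisotropic_ne_zero (c d : F)
    (hcd : ∀ z₁ z₂ : F, z₁ ^ 2 + c * z₁ * z₂ + d * z₂ ^ 2 = 0 → z₁ = 0 ∧ z₂ = 0) : c ≠ 0 := by
  rintro rfl
  obtain ⟨s, hs⟩ := FiniteField.isSquare_of_char_two (ringChar.eq F 2) d
  have := (hcd s 1 (by
    rw [hs]
    have := CharTwo.add_self_eq_zero (s * s)
    linear_combination this)).2
  exact one_ne_zero this

end

end Cfsg.Agent.Helper36
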