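import Cfsg.Agent.Helper36.ChevRelAll
import Cfsg.Agent.Helper36.SbA
import Cfsg.Agent.Helper18.NLongAll
import Cfsg.Agent.Helper18.FAut2
import Cfsg.Agent.Helper17.ChevUniMem

/-!
# Subfield subgroups of Chevalley groups, I: the centraliser (helper36)

An element of the Chevalley group commuting with every `x_s(1)` is trivial:

* `BRel.sf_up_conj`, `BRel.sf_conj_n`: the coordinate of `b⁻¹ x_p(1) b` at the fundamental root `p` is not zero,
  hence `n_p⁻¹ b⁻¹ x_p(1) b n_p ∈ B n_p B`;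
* `BRel.sf_mem_B`: an element commuting with the `x_p(1)`, `p` fundamental, lies in `B` (Bruhat decomposition
  along a reduced word);
* `BRel.sf_mem_H`: an element of `B` commuting with a representative of the longest element lies in `H`;
* `sf_long_exists`: a word of the longest element, for the seven data;
* `BRel.sf_cent`: the conclusion, for a faithful torus.
-/

set_option autoImplicit false
set_option linter.unusedSectionVars false
set_option linter.unusedVariables false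

namespace Cfsg.Agent.Helper36

open Cfsg Cfsg.Lie

section

variable {D : ChevalleyDatum} {F : Type*} [Field F] {η : ℕ → ℕ → ℤ}

/-- `H` normalises `U_p`. -/
theorem BRel.sf_H_conj_up (R : BRel D F η) (i : ℕ) :
    ∀ h ∈ D.diagonalSubgroup F, ∀ w ∈ Subgroup.closure (upGens D F i),
      h * w * h⁻¹ ∈ Subgroup.closure (upGens D F i) := by
  intro h hh
  apply conj_mem_closure
  rintro g ⟨s, t, hs, hsp, hg⟩
  obtain ⟨c, hc⟩ := R.hx h hh s hs.1
  rw [eq_xGL R.xadd hg, hc]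
  exact xGL_mem_upGens R.xadd hs hsp _

/-- The coordinate of `b⁻¹ x_p(1) b` at the fundamental root `p` is not zero. -/
theorem BRel.sf_up_conj (R : BRel D F η) {i : ℕ} (hi : i < D.rank) {b : GL D.Idx F}
    (hb : b ∈ D.borelSubgroup F) :
    ∃ v ∈ Subgroup.closure (upGens D F i), ∃ c : F, c ≠ 0 ∧
      b⁻¹ * xGL R.xadd (D.simple i) 1 * b = v * xGL R.xadd (D.simple i) c := by
  obtain ⟨u, hu, t, h, hh, rfl⟩ := R.exists_decomp hi b hb
  have hp := R.wf.simple_lt i hi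
  obtain ⟨hN, -⟩ := up_main R.xadd R.cf R.up hi
  have hXN : ∀ s : F, ∀ w ∈ Subgroup.closure (upGens D F i),
      xGL R.xadd (D.simple i) s * w * (xGL R.xadd (D.simple i) s)⁻¹ ∈
        Subgroup.closure (upGens D F i) := by
    intro s w hw
    have := hN (Subgroup.mem_sup_left (xGL_mem_rootSubgroup R.xadd (D.simple i) s))
    exact (Subgroup.mem_normalizer_iff.mp this w).mp hw
  obtain ⟨c, hc⟩ := R.hx h⁻¹ (inv_mem hh) _ hp
  have hw₁m : u⁻¹ * (xGL R.xadd (D.simple i) 1 * u * (xGL R.xadd (D.simple i) 1)⁻¹) ∈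
      Subgroup.closure (upGens D F i) := mul_mem (inv_mem hu) (hXN 1 u hu)
  have hw₂m := hXN (-t) _ hw₁m
  have hw₃m := R.sf_H_conj_up i h⁻¹ (inv_mem hh) _ hw₂m
  refine ⟨_, hw₃m, c * 1, ?_, ?_⟩
  · intro h0
    have h1 := hc 1
    rw [h0, xGL_zero] at h1
    have h2 : xGL R.xadd (D.simple i) (1 : F) = 1 := by
      have : xGL R.xadd (D.simple i) (1 : F) =
          h * (h⁻¹ * xGL R.xadd (D.simple i) 1 * h⁻¹⁻¹) * h⁻¹ := by group
      rw [this, h1]; group
    exact one_ne_zero (R.sb_x_eq_one hp h2)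
  · rw [← hc 1]
    have e : xGL R.xadd (D.simple i) (-t) = (xGL R.xadd (D.simple i) t)⁻¹ := (xGL_inv _ _ _).symm
    rw [e]
    have hcomm : xGL R.xadd (D.simple i) (1 : F) * xGL R.xadd (D.simple i) t =
        xGL R.xadd (D.simple i) t * xGL R.xadd (D.simple i) 1 := by
      rw [xGL_mul, xGL_mul, add_comm]
    generalize xGL R.xadd (D.simple i) (1 : F) = X at hcomm ⊢
    generalize xGL R.xadd (D.simple i) t = Y at hcomm ⊢
    have e1 : Y⁻¹ * X * Y = X := by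
      rw [mul_assoc, hcomm, ← mul_assoc, inv_mul_cancel, one_mul]
    calc (u * Y * h)⁻¹ * X * (u * Y * h)
        = h⁻¹ * (Y⁻¹ * (u⁻¹ * (X * u * X⁻¹)) * Y) * h * (h⁻¹ * (Y⁻¹ * X * Y) * h) := by group
      _ = h⁻¹ * (Y⁻¹ * (u⁻¹ * (X * u * X⁻¹)) * Y⁻¹⁻¹) * h⁻¹⁻¹ * (h⁻¹ * X * h⁻¹⁻¹) := by
          rw [e1]; group

/-- `n_p⁻¹ (v x_p(c)) n_p ∈ B n_p B` for `v ∈ U_p`, `c ≠ 0`. -/
theorem BRel.sf_conj_n (R : BRel D F η) {i : ℕ} (hi : i < D.rank) {v : GL D.Idx F}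
    (hv : v ∈ Subgroup.closure (upGens D F i)) {c : F} (hc : c ≠ 0) :
    ∃ b₁ ∈ D.borelSubgroup F, ∃ b₂ ∈ D.borelSubgroup F,
      (R.n i)⁻¹ * (v * xGL R.xadd (D.simple i) c) * R.n i = b₁ * R.n i * b₂ := by
  have hp := R.wf.simple_lt i hi
  obtain ⟨z, hz, -, hz2⟩ := R.n_inv_mem hi
  have hx := R.conj_x hi hp c
  rw [R.wf.refl_simple i hi] at hx
  obtain ⟨b₁, hb₁, b₂, hb₂, he⟩ := R.xneg_mem hi (mul_ne_zero (R.eta_ne_zero hi hp) hc)
  have hv' := BRel.U_le_B D F (R.up_le_U hi (R.n_conj_up hi v hv))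
  have hzB := BRel.H_le_B D F hz
  refine ⟨z * (R.n i * v * (R.n i)⁻¹) * b₁, mul_mem (mul_mem hzB hv') hb₁, b₂ * z⁻¹,
    mul_mem hb₂ (inv_mem hzB), ?_⟩
  calc (R.n i)⁻¹ * (v * xGL R.xadd (D.simple i) c) * R.n i
      = (z * R.n i) * (v * xGL R.xadd (D.simple i) c) * (z * R.n i)⁻¹ := by
        rw [← hz2, inv_inv]
    _ = z * (R.n i * v * (R.n i)⁻¹) * (R.n i * xGL R.xadd (D.simple i) c * (R.n i)⁻¹) * z⁻¹ := by
        group
    _ = z * (R.n i * v * (R.n i)⁻¹) * b₁ * R.n i * (b₂ * z⁻¹) := by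
        rw [hx, he]; group

/-- An element of the group commuting with the `x_p(1)`, `p` fundamental, lies in `B`. -/
theorem BRel.sf_mem_B (R : BRel D F η) {g : GL D.Idx F} (hg : g ∈ D.group F)
    (hc : ∀ i < D.rank, g * xGL R.xadd (D.simple i) 1 = xGL R.xadd (D.simple i) 1 * g) :
    g ∈ D.borelSubgroup F := by
  obtain ⟨b₁, hb₁, n, hn, b₂, hb₂, rfl⟩ := R.bruhat g hg
  obtain ⟨L₀, hL₀, h₀, hh₀, rfl⟩ := R.exists_word n hn
  obtain ⟨L, hL, hred, -, h, hh, he⟩ := R.exists_red L₀ hL₀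
  cases L with
  | nil =>
    rw [he, R.nW_nil, one_mul]
    exact mul_mem (mul_mem hb₁ (BRel.H_le_B D F (mul_mem hh hh₀))) hb₂
  | cons i L' =>
    exfalso
    have hi := hL.head
    have hL' := hL.tail
    obtain ⟨hred', hβ⟩ := hred
    have hp := R.wf.simple_lt i hi
    have hb₃m : h * h₀ * b₂ ∈ D.borelSubgroup F :=
      mul_mem (BRel.H_le_B D F (mul_mem hh hh₀)) hb₂
    have hg' : b₁ * (R.nW L₀ * h₀) * b₂ = b₁ * R.n i * R.nW L' * (h * h₀ * b₂) := by
      rw [he, R.nW_cons]; group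
    have hcomm := hc i hi
    rw [hg'] at hcomm
    obtain ⟨v, hv, c, hc0, hy⟩ := R.sf_up_conj hi hb₁
    obtain ⟨c₁, hc₁, c₂, hc₂, hn⟩ := R.sf_conj_n hi hv hc0
    rw [← hy] at hn
    have hxB : xGL R.xadd (D.simple i) (1 : F) ∈ D.borelSubgroup F :=
      BRel.U_le_B D F (xGL_mem_posUnipotent _ (R.wf.simple_pos i hi) _)
    generalize h * h₀ * b₂ = b₃ at hb₃m hcomm
    generalize xGL R.xadd (D.simple i) (1 : F) = x at hcomm hn hxB
    have h1 : (R.n i)⁻¹ * (b₁⁻¹ * x * b₁) * R.n i = R.nW L' * (b₃ * x * b₃⁻¹) * (R.nW L')⁻¹ := by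
      have e : x = (b₁ * R.n i * R.nW L' * b₃) * x * (b₁ * R.n i * R.nW L' * b₃)⁻¹ := by
        rw [hcomm]; group
      conv_lhs => rw [e]
      group
    have hb₄ : b₃ * x * b₃⁻¹ ∈ D.borelSubgroup F := mul_mem (mul_mem hb₃m hxB) (inv_mem hb₃m)
    have hpos : ∀ t : F, (R.nW L')⁻¹ * xGL R.xadd (D.simple i) t * R.nW L' ∈
        D.borelSubgroup F := by
      intro t
      rw [R.nW_inv_conj_x hL' hp]
      exact BRel.U_le_B D F (xGL_mem_posUnipotent _ hβ _)
    obtain ⟨d₁, hd₁, d₂, hd₂, h2⟩ := R.mul_mem_of_pos hi hpos (R.nW_conj_H' hL') c₂ hc₂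
    have h3 : R.n i * R.nW L' = (d₁⁻¹ * c₁⁻¹) * R.nW L' * ((b₃ * x * b₃⁻¹) * d₂⁻¹) := by
      have e1 : R.n i * R.nW L' = d₁⁻¹ * (R.n i * c₂ * R.nW L') * d₂⁻¹ := by rw [h2]; group
      have e2 : R.n i * c₂ * R.nW L' = c₁⁻¹ * (c₁ * R.n i * c₂) * R.nW L' := by group
      rw [e1, e2, ← hn, h1]; group
    have hnm : R.n i * R.nW L' ∈ D.monomialSubgroup F := by
      have := R.nW_mem_monomial hL
      rwa [R.nW_cons] at this
    have h4 := R.double_coset_unique hnm (R.nW_mem_monomial hL')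
      (mul_mem (inv_mem hd₁) (inv_mem hc₁)) (mul_mem hb₄ (inv_mem hd₂)) h3
    have h5 : (R.n i)⁻¹ ∈ D.diagonalSubgroup F := by
      have := R.nW_conj_H hL' _ h4
      have e : R.nW L' * ((R.n i * R.nW L')⁻¹ * R.nW L') * (R.nW L')⁻¹ = (R.n i)⁻¹ := by group
      rwa [e] at this
    have h6 : R.n i ∈ D.borelSubgroup F := by
      have := inv_mem (BRel.H_le_B D F h5)
      rwa [inv_inv] at this
    exact R.n_x_n_not_mem hi (mul_mem (mul_mem h6
      (BRel.U_le_B D F (xGL_mem_posUnipotent _ (R.wf.simple_pos i hi) _))) h6)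

/-- An element of `B` commuting with a representative of the longest element lies in `H`. -/
theorem BRel.sf_mem_H (R : BRel D F η) {L₀ : List ℕ} (hLv : ValidW D L₀)
    (hLn : ∀ s, D.IsPosRoot s → D.IsNegRoot (wW D L₀ s)) {g : GL D.Idx F}
    (hg : g ∈ D.borelSubgroup F) (hc : g * R.nW L₀ = R.nW L₀ * g) :
    g ∈ D.diagonalSubgroup F := by
  have hgm : g ∈ ((D.posUnipotent F ⊔ D.diagonalSubgroup F : Subgroup (GL D.Idx F)) :
      Set (GL D.Idx F)) := hg
  rw [Subgroup.coe_mul_of_right_le_normalizer_left _ _ R.hU] at hgm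
  obtain ⟨u, hu, h, hh, hbe⟩ := hgm
  have hu' : u ∈ D.posUnipotent F := hu
  have hh' : h ∈ D.diagonalSubgroup F := hh
  have hbe' : g = u * h := hbe.symm
  subst hbe'
  have hv : R.nW L₀ * u * (R.nW L₀)⁻¹ ∈ D.negUnipotent F := by
    refine conj_mem_closure {g : GL D.Idx F | ∃ (r : ℕ) (t : F), D.IsPosRoot r ∧
      (g : Matrix D.Idx D.Idx F) = D.x F r t} (D.negUnipotent F) (R.nW L₀) ?_ u hu'
    rintro g ⟨s, t, hs, hg⟩
    rw [eq_xGL R.xadd hg, R.nW_conj_x hLv hs.1]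
    exact xGL_mem_negUnipotent _ (hLn s hs) _
  have hh2 := R.nW_conj_H hLv h hh'
  have e : R.nW L₀ * u * (R.nW L₀)⁻¹ = u * h * (R.nW L₀ * h * (R.nW L₀)⁻¹)⁻¹ := by
    have e1 : u * h = R.nW L₀ * (u * h) * (R.nW L₀)⁻¹ := by rw [← hc]; group
    conv_rhs => rw [e1]
    group
  have hB : R.nW L₀ * u * (R.nW L₀)⁻¹ ∈ D.borelSubgroup F := by
    rw [e]
    exact mul_mem (mul_mem (BRel.U_le_B D F hu') (BRel.H_le_B D F hh'))
      (inv_mem (BRel.H_le_B D F hh2))
  have h1 : R.nW L₀ * u * (R.nW L₀)⁻¹ = 1 := by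
    have : R.nW L₀ * u * (R.nW L₀)⁻¹ ∈ D.borelSubgroup F ⊓ D.negUnipotent F := ⟨hB, hv⟩
    rwa [R.bv, Subgroup.mem_bot] at this
  have hu1 : u = 1 := by
    have : u = (R.nW L₀)⁻¹ * (R.nW L₀ * u * (R.nW L₀)⁻¹) * R.nW L₀ := by group
    rw [this, h1]; group
  rw [hu1, one_mul]
  exact hh'

/-- An element commuting with the `x_s(1)` commutes with the `n_w`. -/
theorem NRel.sf_comm_nW (R : NRel D F η) {g : GL D.Idx F}
    (hc : ∀ s, g * xGL R.xadd s 1 = xGL R.xadd s 1 * g) (L : List ℕ) :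
    g * R.nW L = R.nW L * g := by
  have hc' : ∀ s, g * xGL R.xadd s (-1) = xGL R.xadd s (-1) * g := by
    intro s
    rw [← xGL_inv]
    have := hc s
    calc g * (xGL R.xadd s 1)⁻¹
        = (xGL R.xadd s 1)⁻¹ * (xGL R.xadd s 1 * g) * (xGL R.xadd s 1)⁻¹ := by group
      _ = (xGL R.xadd s 1)⁻¹ * g := by rw [← this]; group
  have hn : ∀ i, g * R.n i = R.n i * g := by
    intro i
    have e : R.n i = xGL R.xadd (D.simple i) 1 * xGL R.xadd (D.neg (D.simple i)) (-1) *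
        xGL R.xadd (D.simple i) 1 := by
      unfold NRel.n
      rw [nGL_eq, inv_one]
    rw [e, ← mul_assoc, ← mul_assoc, hc, mul_assoc _ g, hc', ← mul_assoc, mul_assoc _ g, hc]
    group
  induction L with
  | nil => rw [R.nW_nil, mul_one, one_mul]
  | cons i L ih => rw [R.nW_cons, ← mul_assoc, hn, mul_assoc, ih, mul_assoc]

/-- The centraliser of the elements `x_s(1)` in the Chevalley group is trivial, when only the identity of
`H` centralises them. -/
theorem BRel.sf_cent (R : BRel D F η) {L₀ : List ℕ} (hLv : ValidW D L₀)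
    (hLn : ∀ s, D.IsPosRoot s → D.IsNegRoot (wW D L₀ s))
    (hT : ∀ h ∈ D.diagonalSubgroup F,
      (∀ s < D.nroots, h * xGL R.xadd s 1 = xGL R.xadd s 1 * h) → h = 1)
    {g : GL D.Idx F} (hg : g ∈ D.group F)
    (hc : ∀ s, g * xGL R.xadd s 1 = xGL R.xadd s 1 * g) : g = 1 := by
  have hB := R.sf_mem_B hg (fun i _ => hc _)
  have hH := R.sf_mem_H hLv hLn hB (R.sf_comm_nW hc L₀)
  exact hT g hH (fun s _ => hc s)

end

/-- A word of the longest element, for the seven data. -/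
theorem sf_long_exists {D : ChevalleyDatum}
    (hD : D ∈ [chevG2, chevB2, chevD4, chevF4, chevE6, chevE7, chevE8]) :
    ∃ L, ValidW D L ∧ ∀ s, D.IsPosRoot s → D.IsNegRoot (wW D L s) := by
  obtain ⟨L, h⟩ := Cfsg.Agent.Helper18.exists_chkLong D hD
  unfold Cfsg.Agent.Helper18.chkLong at h
  rw [Bool.and_eq_true, Cfsg.Agent.Helper18.allBelow_iff] at h
  have hL := Cfsg.Agent.Helper18.allLt_spec _ _ h.1
  refine ⟨L, hL, ?_⟩
  intro s hs
  have h2 := h.2 s hs.1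
  rw [Bool.and_eq_true] at h2
  have h3 := h2.1
  rw [decide_eq_true hs, Cfsg.Agent.Helper18.bsel_true, decide_eq_true_eq,
    (Cfsg.Agent.Helper18.fwdN_spec D hD L hL s hs.1).1] at h3
  exact h3

/-- Only the identity of `H` centralises the `x_s(1)`. -/
theorem sf_torus_faithful {D : ChevalleyDatum} {F : Type*} [Field F]
    (hD : D ∈ [chevG2, chevB2, chevD4, chevF4, chevE6, chevE7, chevE8])
    (R : BRel D F (Cfsg.Agent.Helper18.etaN D)) :
    ∀ h ∈ D.diagonalSubgroup F,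
      (∀ s < D.nroots, h * xGL R.xadd s 1 = xGL R.xadd s 1 * h) → h = 1 := by
  intro h hh hc
  have hT := Cfsg.Agent.Helper17.torusFacts_of_mem hD
  have hmem := Cfsg.Agent.Helper17.diagonalSubgroup_le_torus
    (Cfsg.Agent.Helper17.hDiag_of_mem (F := F) hD) hh
  obtain ⟨z, hz⟩ := Cfsg.Agent.Helper17.mem_torus.mp hmem
  apply Units.ext
  rw [hz, Units.val_one, Cfsg.Agent.Helper17.charDiag_eq_one_iff]
  intro s hs
  have h1 := Cfsg.Agent.Helper17.torus_conj_x hT.chain hT.cartan hz s hs (1 : F)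
  have h2 : h * xGL R.xadd s 1 * h⁻¹ = xGL R.xadd s 1 := by rw [hc s hs]; group
  have h3 := congrArg (fun g : GL D.Idx F => (g : Matrix D.Idx D.Idx F)) h2
  simp only [Units.val_mul, xGL_val] at h3
  rw [h3, mul_one] at h1
  have h4 : xGL R.xadd s (1 : F) = xGL R.xadd s ((Cfsg.Agent.Helper17.torusChar D z s : Fˣ) : F) :=
    Units.ext h1
  exact Units.ext (R.sb_x_inj hs h4).symm

end Cfsg.Agent.Helper36
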