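import Cfsg.Agent.Helper36.SfA

/-!
# Subfield subgroups of Chevalley groups, II: the normaliser (helper36)

`σ` is an endomorphism of the field `F`, acting on the matrices entrywise (`glMap D σ`), and `sfL D F σ` the
subgroup generated by the root elements `x_s(t)` with `σ t = t`.

* `BRel.sf_fixed_form`: a fixed element of the group is `u₁ h n_w u` with fixed factors (uniqueness of the
  Bruhat normal form);
* `sf_fixed_U`: the fixed elements of `U` lie in `sfL`;
* `BRel.sf_fixed_decomp`: a fixed element is `l₁ h l₂` with `l₁, l₂ ∈ sfL` and `h ∈ H` fixed;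
* `BRel.sf_H_conj`: a fixed element of `H` normalises `sfL`;
* `BRel.sf_normal`: fixed elements normalise every group `K` of fixed elements containing `sfL`;
* `BRel.sf_main`: the centraliser of such a `K` is trivial and its normaliser is the group of fixed elements.
-/

set_option autoImplicit false
set_option linter.unusedSectionVars false
set_option linter.unusedVariables false

namespace Cfsg.Agent.Helper36

open Cfsg Cfsg.Lie Cfsg.Agent.Helper18

section

variable {D : ChevalleyDatum} {F : Type*} [Field F] {η : ℕ → ℕ → ℤ}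

/-- The subgroup generated by the root elements with parameters fixed by `σ`. -/
def sfL (D : ChevalleyDatum) (F : Type*) [Field F] (σ : F →+* F) : Subgroup (GL D.Idx F) :=
  Subgroup.closure {g : GL D.Idx F | ∃ (s : ℕ) (t : F), σ t = t ∧
    (g : Matrix D.Idx D.Idx F) = D.x F s t}

theorem xGL_mem_sfL (hX : XAdd D F) (σ : F →+* F) (s : ℕ) {t : F} (ht : σ t = t) :
    xGL hX s t ∈ sfL D F σ :=
  Subgroup.subset_closure ⟨s, t, ht, rfl⟩

theorem NRel.nW_mem_sfL (R : NRel D F η) (σ : F →+* F) (L : List ℕ) : R.nW L ∈ sfL D F σ := by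
  induction L with
  | nil => rw [R.nW_nil]; exact one_mem _
  | cons i L ih =>
    rw [R.nW_cons]
    refine mul_mem ?_ ih
    unfold NRel.n
    rw [nGL_eq, inv_one]
    exact mul_mem (mul_mem (xGL_mem_sfL _ σ _ (map_one σ))
      (xGL_mem_sfL _ σ _ (by rw [map_neg, map_one]))) (xGL_mem_sfL _ σ _ (map_one σ))

/-- A fixed element of the group is `u₁ h n_w u` with fixed factors. -/
theorem BRel.sf_fixed_form (R : BRel D F η) (σ : F →+* F) {g : GL D.Idx F} (hg : g ∈ D.group F)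
    (hfix : glMap D σ g = g) :
    ∃ u₁ ∈ D.posUnipotent F, ∃ h ∈ D.diagonalSubgroup F, ∃ L, ∃ u ∈ D.posUnipotent F,
      g = u₁ * h * R.nW L * u ∧ glMap D σ u₁ = u₁ ∧ glMap D σ h = h ∧ glMap D σ u = u := by
  obtain ⟨b, hb, L, hL, u, hu, rfl⟩ := R.exists_normal_form g hg
  have hσu : glMap D σ u ∈ Subgroup.closure (umGens R.xadd L) := by
    have : Subgroup.closure (umGens R.xadd L) ≤
        (Subgroup.closure (umGens R.xadd L)).comap (glMap D σ) := by
      rw [Subgroup.closure_le]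
      rintro x ⟨r, t, hr, hneg, rfl⟩
      apply Subgroup.subset_closure
      refine ⟨r, σ t, hr, hneg, ?_⟩
      exact Units.ext (glMap_x σ (xGL_val _ _ _))
    exact this hu
  have hn := R.nW_mem_monomial hL
  have hsub := Subgroup.closure_mono (R.umGens_subset hL)
  have e : b * R.nW L * u = glMap D σ b * R.nW L * glMap D σ u := by
    conv_lhs => rw [← hfix]
    rw [map_mul, map_mul, glMap_nW R.toNRel R.toNRel σ]
  obtain ⟨hb', hu'⟩ :=
    (R.normal_form_unique hb (glMap_borelSubgroup σ hb) hn hn (hsub hu) (hsub hσu) e).2 rfl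
  have hbm : b ∈ ((D.posUnipotent F ⊔ D.diagonalSubgroup F : Subgroup (GL D.Idx F)) :
      Set (GL D.Idx F)) := hb
  rw [Subgroup.coe_mul_of_right_le_normalizer_left _ _ R.hU] at hbm
  obtain ⟨u₁, hu₁', h, hh', hbe⟩ := hbm
  have hu₁ : u₁ ∈ D.posUnipotent F := hu₁'
  have hh : h ∈ D.diagonalSubgroup F := hh'
  have hbe' : b = u₁ * h := hbe.symm
  subst hbe'
  have hfix2 : glMap D σ u₁ = u₁ ∧ glMap D σ h = h := by
    rw [map_mul] at hb'
    have hx : u₁⁻¹ * glMap D σ u₁ = h * (glMap D σ h)⁻¹ := by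
      rw [inv_mul_eq_iff_eq_mul, ← mul_assoc, hb', mul_assoc, mul_inv_cancel, mul_one]
    have hmem : u₁⁻¹ * glMap D σ u₁ ∈ D.posUnipotent F ⊓ D.diagonalSubgroup F :=
      Subgroup.mem_inf.mpr ⟨mul_mem (inv_mem hu₁) (glMap_posUnipotent σ hu₁), by
        rw [hx]; exact mul_mem hh (inv_mem (glMap_diagonalSubgroup σ hh))⟩
    rw [R.uh, Subgroup.mem_bot, inv_mul_eq_one] at hmem
    refine ⟨hmem.symm, ?_⟩
    rw [← hmem] at hb'
    exact (mul_left_cancel hb').symm
  exact ⟨u₁, hu₁, h, hh, L, u, unGens_le_posUnipotent _ (hsub hu), rfl, hfix2.1, hfix2.2,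
    hu'.symm⟩

/-- The fixed elements of `U` lie in `sfL`. -/
theorem sf_fixed_U (hX : XAdd D F) (σ : F →+* F)
    (hU : ∀ g : GL D.Idx F, g ∈ D.posUnipotent F →
      ∃! t : ℕ → F, (∀ r, ¬ D.IsPosRoot r → t r = 0) ∧
        (g : Matrix D.Idx D.Idx F) = D.wordMat F (D.posRoots.map fun r => (r, t r)))
    {u : GL D.Idx F} (hu : u ∈ D.posUnipotent F) (hfix : glMap D σ u = u) : u ∈ sfL D F σ := by
  obtain ⟨t, ⟨ht0, ht⟩, huniq⟩ := hU u hu
  have h1 : (u : Matrix D.Idx D.Idx F) = D.wordMat F (D.posRoots.map fun r => (r, σ (t r))) := by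
    have := glMap_word σ ht
    rw [hfix, List.map_map] at this
    exact this
  have h2 : (fun r => σ (t r)) = t :=
    huniq _ ⟨fun r hr => by show σ (t r) = 0; rw [ht0 r hr, map_zero], h1⟩
  have e : u = wordGL hX (D.posRoots.map fun r => (r, t r)) :=
    Units.ext (by rw [ht, wordGL_val])
  rw [e]
  apply wordGL_mem
  intro p hp
  rw [List.mem_map] at hp
  obtain ⟨r, -, rfl⟩ := hp
  exact xGL_mem_sfL hX σ r (congrFun h2 r)

/-- A fixed element of the group is `l₁ h l₂` with `l₁, l₂ ∈ sfL` and `h ∈ H` fixed. -/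
theorem BRel.sf_fixed_decomp (R : BRel D F η) (σ : F →+* F)
    (hU : ∀ g : GL D.Idx F, g ∈ D.posUnipotent F →
      ∃! t : ℕ → F, (∀ r, ¬ D.IsPosRoot r → t r = 0) ∧
        (g : Matrix D.Idx D.Idx F) = D.wordMat F (D.posRoots.map fun r => (r, t r)))
    {g : GL D.Idx F} (hg : g ∈ D.group F) (hfix : glMap D σ g = g) :
    ∃ l₁ ∈ sfL D F σ, ∃ h ∈ D.diagonalSubgroup F, ∃ l₂ ∈ sfL D F σ,
      glMap D σ h = h ∧ g = l₁ * h * l₂ := by
  obtain ⟨u₁, hu₁, h, hh, L, u, hu, rfl, f1, f2, f3⟩ := R.sf_fixed_form σ hg hfix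
  exact ⟨u₁, sf_fixed_U R.xadd σ hU hu₁ f1, h, hh, R.nW L * u,
    mul_mem (R.nW_mem_sfL σ L) (sf_fixed_U R.xadd σ hU hu f3), f2, by group⟩

/-- A fixed element of `H` normalises `sfL`. -/
theorem BRel.sf_H_conj (R : BRel D F η) (σ : F →+* F) {h : GL D.Idx F}
    (hh : h ∈ D.diagonalSubgroup F) (hfix : glMap D σ h = h) :
    ∀ l ∈ sfL D F σ, h * l * h⁻¹ ∈ sfL D F σ := by
  unfold sfL
  apply conj_mem_closure
  rintro g ⟨s, t, ht, hg⟩
  by_cases hs : s < D.nroots
  · obtain ⟨c, hc⟩ := R.hx h hh s hs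
    have hc1 : σ c = c := by
      have h1 := hc 1
      rw [mul_one] at h1
      have h2 := congrArg (glMap D σ) h1
      rw [map_mul, map_mul, map_inv, hfix] at h2
      have h3 : glMap D σ (xGL R.xadd s 1) = xGL R.xadd s 1 :=
        Units.ext (by rw [glMap_x σ (xGL_val _ _ _), map_one, xGL_val])
      have h4 : glMap D σ (xGL R.xadd s c) = xGL R.xadd s (σ c) :=
        Units.ext (glMap_x σ (xGL_val _ _ _))
      rw [h3, h4, h1] at h2
      exact (R.sb_x_inj hs h2).symm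
    rw [eq_xGL R.xadd hg, hc]
    exact xGL_mem_sfL R.xadd σ s (by rw [map_mul, hc1, ht])
  · have : g = 1 := Units.ext (by rw [hg, x_of_not_lt hs, Units.val_one])
    rw [this, mul_one, mul_inv_cancel]
    exact one_mem _

/-- Fixed elements normalise every group of fixed elements containing `sfL`. -/
theorem BRel.sf_normal (R : BRel D F η) (σ : F →+* F)
    (hU : ∀ g : GL D.Idx F, g ∈ D.posUnipotent F →
      ∃! t : ℕ → F, (∀ r, ¬ D.IsPosRoot r → t r = 0) ∧
        (g : Matrix D.Idx D.Idx F) = D.wordMat F (D.posRoots.map fun r => (r, t r)))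
    (hC : ∀ a ∈ D.diagonalSubgroup F, ∀ b ∈ D.diagonalSubgroup F, a * b = b * a)
    (K : Subgroup (GL D.Idx F)) (hKG : K ≤ D.group F) (hLK : sfL D F σ ≤ K)
    (hKfix : ∀ y ∈ K, glMap D σ y = y)
    {g : GL D.Idx F} (hg : g ∈ D.group F) (hfix : glMap D σ g = g) :
    ∀ y ∈ K, g * y * g⁻¹ ∈ K := by
  intro y hy
  obtain ⟨l₁, hl₁, h, hh, l₂, hl₂, hhfix, rfl⟩ := R.sf_fixed_decomp σ hU hg hfix
  have hy' : l₂ * y * l₂⁻¹ ∈ K := mul_mem (mul_mem (hLK hl₂) hy) (inv_mem (hLK hl₂))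
  obtain ⟨m₁, hm₁, h', hh', m₂, hm₂, -, he⟩ :=
    R.sf_fixed_decomp σ hU (hKG hy') (hKfix _ hy')
  have hh'K : h' ∈ K := by
    have : h' = m₁⁻¹ * (l₂ * y * l₂⁻¹) * m₂⁻¹ := by rw [he]; group
    rw [this]
    exact mul_mem (mul_mem (inv_mem (hLK hm₁)) hy') (inv_mem (hLK hm₂))
  have e : l₁ * h * l₂ * y * (l₁ * h * l₂)⁻¹ =
      l₁ * ((h * m₁ * h⁻¹) * (h * h' * h⁻¹) * (h * m₂ * h⁻¹)) * l₁⁻¹ := by
    have : l₁ * h * l₂ * y * (l₁ * h * l₂)⁻¹ = l₁ * (h * (l₂ * y * l₂⁻¹) * h⁻¹) * l₁⁻¹ := by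
      group
    rw [this, he]; group
  rw [e]
  have e2 : h * h' * h⁻¹ = h' := by rw [hC h hh h' hh']; group
  rw [e2]
  exact mul_mem (mul_mem (hLK hl₁) (mul_mem (mul_mem (hLK (R.sf_H_conj σ hh hhfix m₁ hm₁)) hh'K)
    (hLK (R.sf_H_conj σ hh hhfix m₂ hm₂)))) (inv_mem (hLK hl₁))

/-- The centraliser of a group `K` of fixed elements containing `sfL` is trivial, and its normaliser is the
group of the fixed elements. -/
theorem BRel.sf_main (R : BRel D F η) (σ : F →+* F) {L₀ : List ℕ} (hLv : ValidW D L₀)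
    (hLn : ∀ s, D.IsPosRoot s → D.IsNegRoot (wW D L₀ s))
    (hT : ∀ h ∈ D.diagonalSubgroup F,
      (∀ s < D.nroots, h * xGL R.xadd s 1 = xGL R.xadd s 1 * h) → h = 1)
    (hU : ∀ g : GL D.Idx F, g ∈ D.posUnipotent F →
      ∃! t : ℕ → F, (∀ r, ¬ D.IsPosRoot r → t r = 0) ∧
        (g : Matrix D.Idx D.Idx F) = D.wordMat F (D.posRoots.map fun r => (r, t r)))
    (hC : ∀ a ∈ D.diagonalSubgroup F, ∀ b ∈ D.diagonalSubgroup F, a * b = b * a)
    (K : Subgroup (GL D.Idx F)) (hKG : K ≤ D.group F) (hLK : sfL D F σ ≤ K)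
    (hKfix : ∀ y ∈ K, glMap D σ y = y) :
    D.group F ⊓ Subgroup.centralizer (K : Set (GL D.Idx F)) = ⊥ ∧
    ∀ g ∈ D.group F, (g ∈ Subgroup.normalizer (K : Set (GL D.Idx F)) ↔ glMap D σ g = g) := by
  have hx1 : ∀ s, xGL R.xadd s (1 : F) ∈ K := fun s => hLK (xGL_mem_sfL R.xadd σ s (map_one σ))
  have hcent : ∀ g ∈ D.group F, (∀ y ∈ K, y * g = g * y) → g = 1 := by
    intro g hg hc
    exact R.sf_cent hLv hLn hT hg (fun s => (hc _ (hx1 s)).symm)
  constructor
  · rw [eq_bot_iff]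
    rintro g ⟨hg, hc⟩
    rw [Subgroup.mem_bot]
    exact hcent g hg (fun y hy => Subgroup.mem_centralizer_iff.mp hc y hy)
  · intro g hg
    constructor
    · intro hN
      have hN' := Subgroup.mem_normalizer_iff.mp hN
      have h1 : g⁻¹ * glMap D σ g = 1 := by
        apply hcent _ (mul_mem (inv_mem hg) (glMap_group σ hg))
        intro y hy
        have h2 := hKfix _ ((hN' y).mp hy)
        rw [map_mul, map_mul, map_inv, hKfix y hy] at h2
        have e : g⁻¹ * glMap D σ g * y =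
            g⁻¹ * (glMap D σ g * y * (glMap D σ g)⁻¹) * glMap D σ g := by group
        rw [e, h2]; group
      have e : glMap D σ g = g * (g⁻¹ * glMap D σ g) := by group
      rw [e, h1, mul_one]
    · intro hfix
      rw [Subgroup.mem_normalizer_iff]
      intro y
      constructor
      · exact R.sf_normal σ hU hC K hKG hLK hKfix hg hfix y
      · intro hy
        have hfix' : glMap D σ g⁻¹ = g⁻¹ := by rw [map_inv, hfix]
        have := R.sf_normal σ hU hC K hKG hLK hKfix (inv_mem hg) hfix' _ hy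
        have e : g⁻¹ * (g * y * g⁻¹) * g⁻¹⁻¹ = y := by group
        rwa [e] at this

end

end Cfsg.Agent.Helper36
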