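import Mathlib

set_option autoImplicit false

namespace Cfsg.Agent.Helper36

open Module

/-- Normal form of a square-zero endomorphism `f` of a finite-dimensional space `V`: in suitable
coordinates `V ≃ F^ℓ × F^ℓ × F^m` (`ℓ` the rank of `f`), `f` is the shift `(x, y, z) ↦ (0, x, 0)`. -/
theorem exists_sqZero_normal_form {F V : Type*} [Field F] [AddCommGroup V] [Module F V]
    [FiniteDimensional F V] (f : V →ₗ[F] V) (hf : f ∘ₗ f = 0) (ℓ : ℕ)
    (hℓ : finrank F (LinearMap.range f) = ℓ) :
    ∃ e : V ≃ₗ[F] ((Fin ℓ → F) × (Fin ℓ → F) × (Fin (finrank F V - 2 * ℓ) → F)),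
      ∀ v, e (f v) = (0, (e v).1, 0) := by
  classical
  have hff : ∀ v, f (f v) = 0 := fun v => LinearMap.congr_fun hf v
  have hRK : LinearMap.range f ≤ LinearMap.ker f := by
    rintro _ ⟨v, rfl⟩
    rw [LinearMap.mem_ker]
    exact hff v
  obtain ⟨C, hC⟩ := Submodule.exists_isCompl (LinearMap.ker f)
  obtain ⟨D', hD⟩ := Submodule.exists_isCompl
    ((LinearMap.range f).comap (LinearMap.ker f).subtype)
  have h1 : finrank F (LinearMap.range f) + finrank F (LinearMap.ker f) = finrank F V :=
    LinearMap.finrank_range_add_finrank_ker f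
  have h2 : finrank F (LinearMap.ker f) + finrank F C = finrank F V :=
    Submodule.finrank_add_eq_of_isCompl hC
  have h3 : finrank F ((LinearMap.range f).comap (LinearMap.ker f).subtype) + finrank F D'
      = finrank F (LinearMap.ker f) := Submodule.finrank_add_eq_of_isCompl hD
  have h4 : finrank F ((LinearMap.range f).comap (LinearMap.ker f).subtype)
      = finrank F (LinearMap.range f) := (Submodule.comapSubtypeEquivOfLe hRK).finrank_eq
  have hCℓ : finrank F C = ℓ := by omega
  have hDm : finrank F D' = finrank F V - 2 * ℓ := by omega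
  have h2ℓ : 2 * ℓ ≤ finrank F V := by omega
  let γ : (Fin ℓ → F) ≃ₗ[F] C := LinearEquiv.ofFinrankEq _ _ (by rw [finrank_fin_fun, hCℓ])
  let η : (Fin (finrank F V - 2 * ℓ) → F) ≃ₗ[F] D' :=
    LinearEquiv.ofFinrankEq _ _ (by rw [finrank_fin_fun, hDm])
  let g : ((Fin ℓ → F) × (Fin ℓ → F) × (Fin (finrank F V - 2 * ℓ) → F)) →ₗ[F] V :=
    (C.subtype ∘ₗ γ.toLinearMap).coprod ((f ∘ₗ C.subtype ∘ₗ γ.toLinearMap).coprod
      ((LinearMap.ker f).subtype ∘ₗ D'.subtype ∘ₗ η.toLinearMap))
  have hg : ∀ x y z, g (x, y, z) = (γ x : V) + (f (γ y : V) + ((η z : LinearMap.ker f) : V)) :=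
    fun x y z => rfl
  have hfη : ∀ z, f ((η z : LinearMap.ker f) : V) = 0 := fun z =>
    LinearMap.mem_ker.1 (η z : LinearMap.ker f).2
  have hinj : Function.Injective g := by
    rw [← LinearMap.ker_eq_bot, LinearMap.ker_eq_bot']
    rintro ⟨x, y, z⟩ h
    rw [hg] at h
    have hk : f (γ y : V) + ((η z : LinearMap.ker f) : V) ∈ LinearMap.ker f :=
      (LinearMap.ker f).add_mem (hRK ⟨_, rfl⟩) (η z : LinearMap.ker f).2
    have hx : (γ x : V) ∈ LinearMap.ker f := by
      have : (γ x : V) = -(f (γ y : V) + ((η z : LinearMap.ker f) : V)) :=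
        eq_neg_of_add_eq_zero_left h
      rw [this]; exact (LinearMap.ker f).neg_mem hk
    have hx0 : (γ x : V) = 0 := (Submodule.disjoint_def.1 hC.disjoint) _ hx (γ x).2
    have hx' : x = 0 := by
      have : γ x = 0 := Subtype.ext hx0
      simpa using this
    rw [hx0, zero_add] at h
    have hR'mem : (⟨f (γ y : V), hRK ⟨_, rfl⟩⟩ : LinearMap.ker f) ∈
        (LinearMap.range f).comap (LinearMap.ker f).subtype := by
      rw [Submodule.mem_comap]
      exact ⟨_, rfl⟩
    have hsum : (⟨f (γ y : V), hRK ⟨_, rfl⟩⟩ : LinearMap.ker f) + (η z : LinearMap.ker f) = 0 :=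
      Subtype.ext h
    have hz0 : (η z : LinearMap.ker f) = 0 := by
      have hmem : (η z : LinearMap.ker f) ∈ (LinearMap.range f).comap (LinearMap.ker f).subtype := by
        have : (η z : LinearMap.ker f) = -(⟨f (γ y : V), hRK ⟨_, rfl⟩⟩ : LinearMap.ker f) :=
          eq_neg_of_add_eq_zero_right hsum
        rw [this]; exact Submodule.neg_mem _ hR'mem
      exact (Submodule.disjoint_def.1 hD.disjoint) _ hmem (η z).2
    have hz' : z = 0 := by
      have : η z = 0 := Subtype.ext hz0
      simpa using this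
    rw [hz0] at h
    simp only [ZeroMemClass.coe_zero, add_zero] at h
    have hy0 : (γ y : V) = 0 :=
      (Submodule.disjoint_def.1 hC.disjoint) _ (LinearMap.mem_ker.2 h) (γ y).2
    have hy' : y = 0 := by
      have : γ y = 0 := Subtype.ext hy0
      simpa using this
    rw [hx', hy', hz']
    rfl
  have hfin : finrank F ((Fin ℓ → F) × (Fin ℓ → F) × (Fin (finrank F V - 2 * ℓ) → F))
      = finrank F V := by
    rw [finrank_prod, finrank_prod, finrank_fin_fun, finrank_fin_fun]
    omega
  have hsurj : Function.Surjective g :=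
    (LinearMap.injective_iff_surjective_of_finrank_eq_finrank hfin).1 hinj
  let G := LinearEquiv.ofBijective g ⟨hinj, hsurj⟩
  refine ⟨G.symm, ?_⟩
  intro v
  obtain ⟨⟨x, y, z⟩, rfl⟩ := G.surjective v
  rw [LinearEquiv.symm_apply_apply]
  rw [LinearEquiv.symm_apply_eq]
  show f (g (x, y, z)) = g (0, x, 0)
  rw [hg, hg, map_add, map_add, hff, hfη]
  simp

end Cfsg.Agent.Helper36
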