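import Cfsg.Agent.Helper36.SqZero

set_option autoImplicit false

namespace Cfsg.Agent.Helper36

open Module

/-- Two square-zero endomorphisms of the same rank are conjugate. -/
theorem exists_conj_of_sqZero {F V : Type*} [Field F] [AddCommGroup V] [Module F V]
    [FiniteDimensional F V] (f g : V →ₗ[F] V) (hf : f ∘ₗ f = 0) (hg : g ∘ₗ g = 0)
    (h : finrank F (LinearMap.range f) = finrank F (LinearMap.range g)) :
    ∃ e : V ≃ₗ[F] V, ∀ v, e (f v) = g (e v) := by
  obtain ⟨ef, hef⟩ := exists_sqZero_normal_form f hf _ rfl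
  obtain ⟨eg, heg⟩ := exists_sqZero_normal_form g hg _ h.symm
  refine ⟨ef.trans eg.symm, fun v => ?_⟩
  rw [LinearEquiv.trans_apply, LinearEquiv.trans_apply, LinearEquiv.symm_apply_eq, heg,
    LinearEquiv.apply_symm_apply, hef]

/-- A nonzero square-zero endomorphism commutes with endomorphisms of every square determinant. -/
theorem exists_commuting_det_sq {F V : Type*} [Field F] [AddCommGroup V] [Module F V]
    [FiniteDimensional F V] (f : V →ₗ[F] V) (hf : f ∘ₗ f = 0) (hne : f ≠ 0) (s : F) :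
    ∃ c : V →ₗ[F] V, (∀ v, c (f v) = f (c v)) ∧ LinearMap.det c = s * s := by
  classical
  obtain ⟨ℓ, hℓ⟩ : ∃ ℓ, finrank F (LinearMap.range f) = ℓ := ⟨_, rfl⟩
  obtain ⟨e, he⟩ := exists_sqZero_normal_form f hf ℓ hℓ
  have hpos : 0 < ℓ := by
    rw [Nat.pos_iff_ne_zero]
    intro h0
    rw [h0] at hℓ
    have : LinearMap.range f = ⊥ := Submodule.finrank_eq_zero.1 hℓ
    exact hne (LinearMap.range_eq_bot.1 this)
  let δ : (Fin ℓ → F) →ₗ[F] (Fin ℓ → F) :=
    Matrix.toLin' (Matrix.diagonal (Function.update (fun _ => (1 : F)) (⟨0, hpos⟩ : Fin ℓ) s))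
  have hδ : LinearMap.det δ = s := by
    rw [LinearMap.det_toLin', Matrix.det_diagonal, Finset.prod_update_of_mem (Finset.mem_univ _)]
    simp
  let P : ((Fin ℓ → F) × (Fin ℓ → F) × (Fin (finrank F V - 2 * ℓ) → F)) →ₗ[F]
      ((Fin ℓ → F) × (Fin ℓ → F) × (Fin (finrank F V - 2 * ℓ) → F)) :=
    δ.prodMap (δ.prodMap LinearMap.id)
  have hP : LinearMap.det P = s * s := by
    rw [LinearMap.det_prodMap, LinearMap.det_prodMap, LinearMap.det_id, hδ, mul_one]
  refine ⟨(e.symm : _ →ₗ[F] V) ∘ₗ P ∘ₗ (e : V →ₗ[F] _), ?_, ?_⟩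
  · intro v
    have he' : ∀ w, f (e.symm w) = e.symm (0, w.1, 0) := by
      intro w
      rw [← LinearEquiv.symm_apply_apply e (f (e.symm w)), he, LinearEquiv.apply_symm_apply]
    simp only [LinearMap.comp_apply, LinearEquiv.coe_coe]
    rw [he, he']
    simp [P]
  · have := LinearMap.det_conj P e.symm
    rw [LinearEquiv.symm_symm] at this
    rw [this, hP]

/-- Matrix form: two matrices `A`, `B` over a finite field of characteristic two with
`(A - 1)² = 0 = (B - 1)²`, `A ≠ 1` and `rank (A - 1) = rank (B - 1)` are conjugate by a matrix of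
determinant one. -/
theorem exists_det_one_conj {F : Type*} [Field F] [Finite F] [CharP F 2] {n : ℕ}
    (A B : Matrix (Fin n) (Fin n) F) (hA : (A - 1) * (A - 1) = 0) (hB : (B - 1) * (B - 1) = 0)
    (hne : A ≠ 1) (hrank : (A - 1).rank = (B - 1).rank) :
    ∃ G : Matrix (Fin n) (Fin n) F, G.det = 1 ∧ G * A = B * G := by
  have hfA : Matrix.toLin' (A - 1) ∘ₗ Matrix.toLin' (A - 1) = 0 := by
    rw [← Matrix.toLin'_mul, hA, map_zero]
  have hfB : Matrix.toLin' (B - 1) ∘ₗ Matrix.toLin' (B - 1) = 0 := by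
    rw [← Matrix.toLin'_mul, hB, map_zero]
  have hr : finrank F (LinearMap.range (Matrix.toLin' (A - 1)))
      = finrank F (LinearMap.range (Matrix.toLin' (B - 1))) := hrank
  obtain ⟨e, he⟩ := exists_conj_of_sqZero _ _ hfA hfB hr
  have hfne : Matrix.toLin' (A - 1) ≠ 0 := by
    intro h
    have : A - 1 = 0 := Matrix.toLin'.injective (by rw [h, map_zero])
    exact hne (sub_eq_zero.1 this)
  have hdet0 : LinearMap.det (e : (Fin n → F) →ₗ[F] (Fin n → F)) ≠ 0 := e.isUnit_det'.ne_zero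
  obtain ⟨s, hs⟩ := FiniteField.isSquare_of_char_two (ringChar.eq F 2)
    (LinearMap.det (e : (Fin n → F) →ₗ[F] (Fin n → F)))⁻¹
  obtain ⟨c, hc, hcdet⟩ := exists_commuting_det_sq _ hfA hfne s
  refine ⟨LinearMap.toMatrix' (e : (Fin n → F) →ₗ[F] (Fin n → F)) * LinearMap.toMatrix' c, ?_, ?_⟩
  · rw [Matrix.det_mul, LinearMap.det_toMatrix', LinearMap.det_toMatrix', hcdet, ← hs,
      mul_inv_cancel₀ hdet0]
  · have h1 : LinearMap.toMatrix' (e : (Fin n → F) →ₗ[F] (Fin n → F)) * (A - 1)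
        = (B - 1) * LinearMap.toMatrix' (e : (Fin n → F) →ₗ[F] (Fin n → F)) := by
      have : (e : (Fin n → F) →ₗ[F] (Fin n → F)) ∘ₗ Matrix.toLin' (A - 1)
          = Matrix.toLin' (B - 1) ∘ₗ (e : (Fin n → F) →ₗ[F] (Fin n → F)) :=
        LinearMap.ext fun v => he v
      have := congrArg LinearMap.toMatrix' this
      rwa [LinearMap.toMatrix'_comp, LinearMap.toMatrix'_comp, LinearMap.toMatrix'_toLin',
        LinearMap.toMatrix'_toLin'] at this
    have h2 : LinearMap.toMatrix' c * (A - 1) = (A - 1) * LinearMap.toMatrix' c := by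
      have : c ∘ₗ Matrix.toLin' (A - 1) = Matrix.toLin' (A - 1) ∘ₗ c :=
        LinearMap.ext fun v => hc v
      have := congrArg LinearMap.toMatrix' this
      rwa [LinearMap.toMatrix'_comp, LinearMap.toMatrix'_comp, LinearMap.toMatrix'_toLin'] at this
    have h1' : LinearMap.toMatrix' (e : (Fin n → F) →ₗ[F] (Fin n → F)) * A
        = B * LinearMap.toMatrix' (e : (Fin n → F) →ₗ[F] (Fin n → F)) := by
      rw [mul_sub, sub_mul, mul_one, one_mul] at h1
      exact sub_left_injective h1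
    have h2' : LinearMap.toMatrix' c * A = A * LinearMap.toMatrix' c := by
      rw [mul_sub, sub_mul, mul_one, one_mul] at h2
      exact sub_left_injective h2
    rw [mul_assoc, h2', ← mul_assoc, h1', mul_assoc]

end Cfsg.Agent.Helper36
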