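import Mathlib

set_option autoImplicit false

namespace Cfsg.Agent.Helper36

open Matrix

/-- The involution of `Fin n` swapping `i` and `i + (n - ℓ)` for `i < ℓ` (identity unless `2 ℓ ≤ n`). -/
def swapFun (n ℓ : ℕ) (i : Fin n) : Fin n :=
  if h : i.val < ℓ ∧ 2 * ℓ ≤ n then ⟨i.val + (n - ℓ), by omega⟩
  else if h' : n - ℓ ≤ i.val ∧ 2 * ℓ ≤ n then ⟨i.val - (n - ℓ), by omega⟩
  else i

theorem swapFun_val_lt {n ℓ : ℕ} (h2 : 2 * ℓ ≤ n) (i : Fin n) (hi : i.val < ℓ) :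
    (swapFun n ℓ i).val = i.val + (n - ℓ) := by
  unfold swapFun
  rw [dif_pos ⟨hi, h2⟩]

theorem swapFun_val_ge {n ℓ : ℕ} (h2 : 2 * ℓ ≤ n) (i : Fin n) (hi : n - ℓ ≤ i.val) :
    (swapFun n ℓ i).val = i.val - (n - ℓ) := by
  unfold swapFun
  have : ¬ (i.val < ℓ ∧ 2 * ℓ ≤ n) := by omega
  rw [dif_neg this, dif_pos ⟨hi, h2⟩]

theorem swapFun_val_mid {n ℓ : ℕ} (i : Fin n) (hi : ℓ ≤ i.val) (hi' : i.val < n - ℓ) :
    (swapFun n ℓ i).val = i.val := by
  unfold swapFun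
  have h1 : ¬ (i.val < ℓ ∧ 2 * ℓ ≤ n) := by omega
  have h2 : ¬ (n - ℓ ≤ i.val ∧ 2 * ℓ ≤ n) := by omega
  rw [dif_neg h1, dif_neg h2]

theorem swapFun_of_not {n ℓ : ℕ} (h2 : ¬ 2 * ℓ ≤ n) (i : Fin n) : swapFun n ℓ i = i := by
  unfold swapFun
  have h1 : ¬ (i.val < ℓ ∧ 2 * ℓ ≤ n) := by omega
  have h3 : ¬ (n - ℓ ≤ i.val ∧ 2 * ℓ ≤ n) := by omega
  rw [dif_neg h1, dif_neg h3]

theorem swapFun_involutive (n ℓ : ℕ) : Function.Involutive (swapFun n ℓ) := by
  intro i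
  by_cases h2 : 2 * ℓ ≤ n
  · apply Fin.ext
    by_cases h : i.val < ℓ
    · have e1 := swapFun_val_lt h2 i h
      have e2 := swapFun_val_ge h2 (swapFun n ℓ i) (by omega)
      omega
    · by_cases h' : n - ℓ ≤ i.val
      · have e1 := swapFun_val_ge h2 i h'
        have e2 := swapFun_val_lt h2 (swapFun n ℓ i) (by omega)
        omega
      · have e1 := swapFun_val_mid (ℓ := ℓ) i (by omega) (by omega)
        have e2 := swapFun_val_mid (ℓ := ℓ) (swapFun n ℓ i) (by omega) (by omega)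
        omega
  · rw [swapFun_of_not h2, swapFun_of_not h2]

/-- The swap as a permutation. -/
def swapPerm (n ℓ : ℕ) : Equiv.Perm (Fin n) := (swapFun_involutive n ℓ).toPerm

theorem swapPerm_apply (n ℓ : ℕ) (i : Fin n) : swapPerm n ℓ i = swapFun n ℓ i := rfl

theorem swapPerm_symm (n ℓ : ℕ) : (swapPerm n ℓ).symm = swapPerm n ℓ := rfl

/-- The matrix with ones in positions `(j + (n - ℓ), j)`, `j < ℓ`. -/
def lowE (F : Type*) [Field F] (n ℓ : ℕ) : Matrix (Fin n) (Fin n) F :=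
  Matrix.of (fun i j : Fin n => if j.val < ℓ ∧ i.val = j.val + (n - ℓ) then (1 : F) else 0)

/-- The permutation matrix of the swap, in the explicit form used in the statements. -/
def swapMat (F : Type*) [Field F] (n ℓ : ℕ) : Matrix (Fin n) (Fin n) F :=
  Matrix.of (fun i j : Fin n =>
    if (j.val < ℓ ∧ i.val = j.val + (n - ℓ)) ∨ (i.val < ℓ ∧ j.val = i.val + (n - ℓ)) ∨
      (i = j ∧ ℓ ≤ i.val ∧ i.val < n - ℓ) then (1 : F) else 0)

/-- The diagonal idempotent on the first `ℓ` coordinates. -/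
def diagLo (F : Type*) [Field F] (n ℓ : ℕ) : Matrix (Fin n) (Fin n) F :=
  Matrix.diagonal (fun i : Fin n => if i.val < ℓ then (1 : F) else 0)

/-- The diagonal idempotent on the last `ℓ` coordinates. -/
def diagHi (F : Type*) [Field F] (n ℓ : ℕ) : Matrix (Fin n) (Fin n) F :=
  Matrix.diagonal (fun i : Fin n => if n - ℓ ≤ i.val then (1 : F) else 0)

variable {F : Type*} [Field F]

theorem swapFun_eq_iff {n ℓ : ℕ} (h2 : 2 * ℓ ≤ n) (i j : Fin n) :
    swapFun n ℓ i = j ↔ ((j.val < ℓ ∧ i.val = j.val + (n - ℓ)) ∨ (i.val < ℓ ∧ j.val = i.val + (n - ℓ)) ∨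
      (i = j ∧ ℓ ≤ i.val ∧ i.val < n - ℓ)) := by
  rw [Fin.ext_iff (a := i) (b := j), Fin.ext_iff]
  by_cases h : i.val < ℓ
  · rw [swapFun_val_lt h2 i h]; omega
  · by_cases h' : n - ℓ ≤ i.val
    · rw [swapFun_val_ge h2 i h']; omega
    · rw [swapFun_val_mid (ℓ := ℓ) i (by omega) (by omega)]; omega

theorem swapMat_eq_permMatrix {n ℓ : ℕ} (h2 : 2 * ℓ ≤ n) :
    swapMat F n ℓ = (swapPerm n ℓ).permMatrix F := by
  ext i j
  simp only [swapMat, Matrix.of_apply, PEquiv.toMatrix_apply, Equiv.toPEquiv_apply,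
    Option.mem_def, Option.some.injEq, swapPerm_apply]
  by_cases h : swapFun n ℓ i = j
  · rw [if_pos ((swapFun_eq_iff h2 i j).1 h), if_pos h]
  · rw [if_neg (fun h' => h ((swapFun_eq_iff h2 i j).2 h')), if_neg h]

theorem swapMat_mul_self {n ℓ : ℕ} (h2 : 2 * ℓ ≤ n) : swapMat F n ℓ * swapMat F n ℓ = 1 := by
  rw [swapMat_eq_permMatrix h2, ← Matrix.permMatrix_mul]
  have : swapPerm n ℓ * swapPerm n ℓ = 1 := by
    ext i
    simp only [Equiv.Perm.coe_mul, Function.comp_apply, swapPerm_apply, Equiv.Perm.coe_one, id_eq]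
    rw [swapFun_involutive n ℓ i]
  rw [this, Matrix.permMatrix_one]

theorem swapMat_mulVec {n ℓ : ℕ} (h2 : 2 * ℓ ≤ n) (v : Fin n → F) :
    swapMat F n ℓ *ᵥ v = v ∘ swapPerm n ℓ := by
  rw [swapMat_eq_permMatrix h2, Matrix.permMatrix_mulVec]

theorem isUnit_det_swapMat {n ℓ : ℕ} (h2 : 2 * ℓ ≤ n) : IsUnit (swapMat F n ℓ).det := by
  have h := congrArg Matrix.det (swapMat_mul_self (F := F) h2)
  rw [Matrix.det_mul, Matrix.det_one] at h
  exact IsUnit.of_mul_eq_one _ h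

theorem lowE_eq {n ℓ : ℕ} (h2 : 2 * ℓ ≤ n) : lowE F n ℓ = swapMat F n ℓ * diagLo F n ℓ := by
  ext i j
  simp only [lowE, swapMat, diagLo, Matrix.of_apply, Matrix.mul_diagonal]
  by_cases hj : j.val < ℓ
  · rw [if_pos hj, mul_one]
    by_cases hi : i.val = j.val + (n - ℓ)
    · rw [if_pos ⟨hj, hi⟩, if_pos (Or.inl ⟨hj, hi⟩)]
    · rw [if_neg (fun h => hi h.2), if_neg]
      rw [Fin.ext_iff]; omega
  · rw [if_neg hj, mul_zero, if_neg (fun h => hj h.1)]

theorem rank_diagLo {n ℓ : ℕ} (h : ℓ ≤ n) : (diagLo F n ℓ).rank = ℓ := by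
  classical
  rw [diagLo, Matrix.rank_diagonal]
  have : ∀ i : Fin n, ((if i.val < ℓ then (1 : F) else 0) ≠ 0) ↔ i.val < ℓ := by
    intro i; by_cases hi : i.val < ℓ <;> simp [hi]
  rw [Fintype.card_congr (Equiv.subtypeEquivRight this)]
  rw [Fintype.card_subtype]
  have : (Finset.univ.filter fun i : Fin n => i.val < ℓ) = (Finset.univ : Finset (Fin ℓ)).map
      ⟨Fin.castLE h, Fin.castLE_injective h⟩ := by
    ext i
    simp only [Finset.mem_filter, Finset.mem_univ, true_and, Finset.mem_map,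
      Function.Embedding.coeFn_mk]
    constructor
    · intro hi; exact ⟨⟨i.val, hi⟩, Fin.ext rfl⟩
    · rintro ⟨j, rfl⟩; exact j.isLt
  rw [this, Finset.card_map, Finset.card_univ, Fintype.card_fin]

/-- the shift embedding `Fin ℓ → Fin n`, `j ↦ j + (n - ℓ)` -/
def shiftFin (n ℓ : ℕ) (h : ℓ ≤ n) (j : Fin ℓ) : Fin n := ⟨j.val + (n - ℓ), by omega⟩

theorem shiftFin_injective (n ℓ : ℕ) (h : ℓ ≤ n) : Function.Injective (shiftFin n ℓ h) := by
  intro a b hab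
  have := congrArg Fin.val hab
  simp only [shiftFin] at this
  apply Fin.ext
  omega

theorem rank_diagHi {n ℓ : ℕ} (h : ℓ ≤ n) : (diagHi F n ℓ).rank = ℓ := by
  classical
  rw [diagHi, Matrix.rank_diagonal]
  have : ∀ i : Fin n, ((if n - ℓ ≤ i.val then (1 : F) else 0) ≠ 0) ↔ n - ℓ ≤ i.val := by
    intro i; by_cases hi : n - ℓ ≤ i.val <;> simp [hi]
  rw [Fintype.card_congr (Equiv.subtypeEquivRight this)]
  rw [Fintype.card_subtype]
  have : (Finset.univ.filter fun i : Fin n => n - ℓ ≤ i.val) = (Finset.univ : Finset (Fin ℓ)).map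
      ⟨shiftFin n ℓ h, shiftFin_injective n ℓ h⟩ := by
    ext i
    simp only [Finset.mem_filter, Finset.mem_univ, true_and, Finset.mem_map,
      Function.Embedding.coeFn_mk]
    constructor
    · intro hi
      refine ⟨⟨i.val - (n - ℓ), by omega⟩, Fin.ext ?_⟩
      simp only [shiftFin]; omega
    · rintro ⟨j, rfl⟩; simp [shiftFin]
  rw [this, Finset.card_map, Finset.card_univ, Fintype.card_fin]

theorem rank_lowE {n ℓ : ℕ} (h2 : 2 * ℓ ≤ n) : (lowE F n ℓ).rank = ℓ := by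
  rw [lowE_eq h2, Matrix.rank_mul_eq_right_of_isUnit_det _ _ (isUnit_det_swapMat h2),
    rank_diagLo (by omega)]

theorem lowE_mul_self {n ℓ : ℕ} (h1 : 1 ≤ ℓ) (h2 : 2 * ℓ ≤ n) : lowE F n ℓ * lowE F n ℓ = 0 := by
  ext i k
  simp only [Matrix.mul_apply, lowE, Matrix.of_apply, Matrix.zero_apply]
  apply Finset.sum_eq_zero
  intro j _
  by_cases hj : j.val < ℓ ∧ i.val = j.val + (n - ℓ)
  · have : ¬ (k.val < ℓ ∧ j.val = k.val + (n - ℓ)) := by omega
    simp [this]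
  · simp [hj]

theorem mat_add_self [CharP F 2] {m : Type*} (M : Matrix m m F) : M + M = 0 := by
  ext i j
  simp [CharTwo.add_self_eq_zero]

theorem eq_one_of_mul_self_eq_one [CharP F 2] (x : F) (h : x * x = 1) : x = 1 := by
  have h2 : (x + 1) ^ 2 = 0 := by
    rw [CharTwo.add_sq, pow_two, h, one_pow, CharTwo.add_self_eq_zero]
  have h3 : x + 1 = 0 := by simpa using h2
  have h4 : x = -1 := eq_neg_of_add_eq_zero_left h3
  rw [h4, CharTwo.neg_eq]

theorem one_add_lowE_mul_self [CharP F 2] {n ℓ : ℕ} (h1 : 1 ≤ ℓ) (h2 : 2 * ℓ ≤ n) :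
    (1 + lowE F n ℓ) * (1 + lowE F n ℓ) = 1 := by
  rw [mul_add, add_mul, add_mul, one_mul, mul_one, one_mul, lowE_mul_self h1 h2, add_zero,
    add_assoc, mat_add_self, add_zero]

theorem det_one_add_lowE [CharP F 2] {n ℓ : ℕ} (h1 : 1 ≤ ℓ) (h2 : 2 * ℓ ≤ n) :
    (1 + lowE F n ℓ).det = 1 := by
  have h := congrArg Matrix.det (one_add_lowE_mul_self (F := F) h1 h2)
  rw [Matrix.det_mul, Matrix.det_one] at h
  exact eq_one_of_mul_self_eq_one _ h

theorem lowE_ne_zero {n ℓ : ℕ} (h1 : 1 ≤ ℓ) (h2 : 2 * ℓ ≤ n) : lowE F n ℓ ≠ 0 := by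
  intro h
  have := rank_lowE (F := F) h2
  rw [h, Matrix.rank_zero] at this
  omega

end Cfsg.Agent.Helper36
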