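import Cfsg.Agent.Helper36.SwapMat

set_option autoImplicit false

namespace Cfsg.Agent.Helper36

open Matrix

variable {F : Type*} [Field F]

theorem swapMat_diagLo_swapMat {n ℓ : ℕ} (h2 : 2 * ℓ ≤ n) :
    swapMat F n ℓ * diagLo F n ℓ * swapMat F n ℓ = diagHi F n ℓ := by
  rw [swapMat_eq_permMatrix h2, PEquiv.toMatrix_toPEquiv_mul, PEquiv.mul_toMatrix_toPEquiv,
    swapPerm_symm]
  ext i j
  simp only [Matrix.submatrix_apply, id, diagLo, diagHi, Matrix.diagonal_apply, swapPerm_apply]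
  by_cases hij : i = j
  · subst hij
    rw [if_pos rfl, if_pos rfl]
    by_cases h : i.val < ℓ
    · have e := swapFun_val_lt h2 i h
      rw [if_neg (by omega), if_neg (by omega)]
    · by_cases h' : n - ℓ ≤ i.val
      · have e := swapFun_val_ge h2 i h'
        rw [if_pos (by omega), if_pos h']
      · have e := swapFun_val_mid (ℓ := ℓ) i (by omega) (by omega)
        rw [if_neg (by omega), if_neg h']
  · rw [if_neg hij, if_neg]
    intro h
    exact hij ((swapFun_involutive n ℓ).injective h)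

theorem diagLo_mul_self {n ℓ : ℕ} : diagLo F n ℓ * diagLo F n ℓ = diagLo F n ℓ := by
  rw [diagLo, Matrix.diagonal_mul_diagonal]
  congr 1
  funext i
  by_cases h : i.val < ℓ <;> simp [h]

theorem diagHi_mul_diagLo {n ℓ : ℕ} (h2 : 2 * ℓ ≤ n) : diagHi F n ℓ * diagLo F n ℓ = 0 := by
  rw [diagHi, diagLo, Matrix.diagonal_mul_diagonal]
  ext i j
  rw [Matrix.diagonal_apply, Matrix.zero_apply]
  by_cases hij : i = j
  · rw [if_pos hij]
    by_cases h : i.val < ℓ
    · rw [if_neg (by omega), zero_mul]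
    · rw [if_neg h, mul_zero]
  · rw [if_neg hij]

theorem swapMat_entry_identity {n ℓ : ℕ} (h2 : 2 * ℓ ≤ n) :
    swapMat F n ℓ + diagLo F n ℓ + diagHi F n ℓ =
      1 + swapMat F n ℓ * diagLo F n ℓ + diagLo F n ℓ * swapMat F n ℓ := by
  ext i j
  simp only [Matrix.add_apply, diagLo, diagHi, Matrix.mul_diagonal, Matrix.diagonal_mul,
    Matrix.diagonal_apply, Matrix.one_apply, swapMat, Matrix.of_apply]
  by_cases hij : i = j
  · subst hij
    have hP : ¬ ((i.val < ℓ ∧ i.val = i.val + (n - ℓ)) ∨ (i.val < ℓ ∧ i.val = i.val + (n - ℓ)) ∨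
        (i = i ∧ ℓ ≤ i.val ∧ i.val < n - ℓ)) ↔ (i.val < ℓ ∨ n - ℓ ≤ i.val) := by omega
    by_cases h : i.val < ℓ
    · rw [if_neg (hP.2 (Or.inl h)), if_pos rfl, if_pos h, if_pos rfl, if_neg (by omega)]
      simp
    · by_cases h' : n - ℓ ≤ i.val
      · rw [if_neg (hP.2 (Or.inr h')), if_pos rfl, if_neg h, if_pos rfl, if_pos h']
        simp
      · rw [if_pos (by rw [← not_not (a := _ ∨ _), hP]; omega), if_pos rfl, if_neg h, if_pos rfl,
          if_neg h']
        simp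
  · rw [if_neg hij, if_neg hij, if_neg hij]
    have hij' : i.val ≠ j.val := fun h => hij (Fin.ext h)
    by_cases hP : (j.val < ℓ ∧ i.val = j.val + (n - ℓ)) ∨ (i.val < ℓ ∧ j.val = i.val + (n - ℓ)) ∨
        (i = j ∧ ℓ ≤ i.val ∧ i.val < n - ℓ)
    · rw [if_pos hP]
      rcases hP with hP | hP | hP
      · rw [if_pos hP.1, if_neg (by omega)]; simp
      · rw [if_neg (by omega), if_pos hP.1]; simp
      · exact absurd hP.1 hij
    · rw [if_neg hP]; simp

theorem swapMat_sub_one_eq {n ℓ : ℕ} (h2 : 2 * ℓ ≤ n) :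
    swapMat F n ℓ - 1 = (swapMat F n ℓ - 1) * diagLo F n ℓ * (1 - swapMat F n ℓ) := by
  have e1 := swapMat_entry_identity (F := F) h2
  have e2 := swapMat_diagLo_swapMat (F := F) h2
  have e4 : (swapMat F n ℓ - 1) * diagLo F n ℓ * (1 - swapMat F n ℓ) =
      swapMat F n ℓ * diagLo F n ℓ - swapMat F n ℓ * diagLo F n ℓ * swapMat F n ℓ - diagLo F n ℓ
        + diagLo F n ℓ * swapMat F n ℓ := by
    noncomm_ring
  rw [e4, e2]
  calc swapMat F n ℓ - 1 = (swapMat F n ℓ + diagLo F n ℓ + diagHi F n ℓ) - 1 - diagLo F n ℓ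
        - diagHi F n ℓ := by abel
    _ = (1 + swapMat F n ℓ * diagLo F n ℓ + diagLo F n ℓ * swapMat F n ℓ) - 1 - diagLo F n ℓ
        - diagHi F n ℓ := by rw [e1]
    _ = swapMat F n ℓ * diagLo F n ℓ - diagHi F n ℓ - diagLo F n ℓ
        + diagLo F n ℓ * swapMat F n ℓ := by abel

theorem diagHi_mul_sub_mul_diagLo {n ℓ : ℕ} (h2 : 2 * ℓ ≤ n) :
    diagHi F n ℓ * (swapMat F n ℓ - 1) * diagLo F n ℓ = lowE F n ℓ := by
  rw [mul_sub, sub_mul, mul_one, diagHi_mul_diagLo h2, sub_zero, ← swapMat_diagLo_swapMat h2,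
    mul_assoc _ (swapMat F n ℓ) (swapMat F n ℓ), swapMat_mul_self h2, mul_one, mul_assoc,
    diagLo_mul_self, lowE_eq h2]

theorem rank_swapMat_sub_one {n ℓ : ℕ} (h2 : 2 * ℓ ≤ n) : (swapMat F n ℓ - 1).rank = ℓ := by
  apply le_antisymm
  · rw [swapMat_sub_one_eq h2]
    calc ((swapMat F n ℓ - 1) * diagLo F n ℓ * (1 - swapMat F n ℓ)).rank
        ≤ ((swapMat F n ℓ - 1) * diagLo F n ℓ).rank := Matrix.rank_mul_le_left _ _
      _ ≤ (diagLo F n ℓ).rank := Matrix.rank_mul_le_right _ _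
      _ = ℓ := rank_diagLo (by omega)
  · calc ℓ = (lowE F n ℓ).rank := (rank_lowE h2).symm
      _ = (diagHi F n ℓ * (swapMat F n ℓ - 1) * diagLo F n ℓ).rank := by
          rw [diagHi_mul_sub_mul_diagLo h2]
      _ ≤ (diagHi F n ℓ * (swapMat F n ℓ - 1)).rank := Matrix.rank_mul_le_left _ _
      _ ≤ (swapMat F n ℓ - 1).rank := Matrix.rank_mul_le_right _ _

theorem det_swapMat [CharP F 2] {n ℓ : ℕ} (h2 : 2 * ℓ ≤ n) : (swapMat F n ℓ).det = 1 := by
  have h := congrArg Matrix.det (swapMat_mul_self (F := F) h2)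
  rw [Matrix.det_mul, Matrix.det_one] at h
  exact eq_one_of_mul_self_eq_one _ h

theorem swapMat_ne_one {n ℓ : ℕ} (h1 : 1 ≤ ℓ) (h2 : 2 * ℓ ≤ n) : swapMat F n ℓ ≠ 1 := by
  intro h
  have := rank_swapMat_sub_one (F := F) h2
  rw [h, sub_self, Matrix.rank_zero] at this
  omega

end Cfsg.Agent.Helper36
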