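import Cfsg.Agent.Helper36.InvData5
import Cfsg.Agent.Helper36.SympForm

set_option autoImplicit false

namespace Cfsg.Agent.Helper36

open Module Matrix

variable {F : Type*} [Field F] {m : ℕ}

/-- The symplectic form as a bilinear map. -/
def sympBil (m : ℕ) (F : Type*) [Field F] :
    (Fin m ⊕ Fin m → F) →ₗ[F] (Fin m ⊕ Fin m → F) →ₗ[F] F :=
  LinearMap.mk₂ F (Cfsg.sympForm m F)
    (fun u u' v => sympForm_add_left u u' v)
    (fun c u v => by rw [sympForm_smul_left, smul_eq_mul])
    (fun u v v' => sympForm_add_right u v v')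
    (fun c u v => by rw [sympForm_smul_right, smul_eq_mul])

theorem sympBil_apply (u v : Fin m ⊕ Fin m → F) : sympBil m F u v = Cfsg.sympForm m F u v := rfl

/-- The data attached to a symplectic involution. -/
def sympData (A : Matrix (Fin m ⊕ Fin m) (Fin m ⊕ Fin m) F)
    (hA : A ∈ Matrix.symplecticGroup (Fin m) F) (hAA : A * A = 1) :
    InvData F (Fin m ⊕ Fin m → F) where
  f := sympBil m F
  t := Matrix.toLin' A
  alt := fun v => sympForm_self v
  nondeg := fun v hv => sympForm_nondeg_left v hv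
  inv := fun v => by
    rw [Matrix.toLin'_apply, Matrix.toLin'_apply, Matrix.mulVec_mulVec, hAA, Matrix.one_mulVec]
  isom := fun u v => by
    rw [Matrix.toLin'_apply, Matrix.toLin'_apply]
    exact sympForm_mulVec hA u v

theorem sympData_f (A : Matrix (Fin m ⊕ Fin m) (Fin m ⊕ Fin m) F)
    (hA : A ∈ Matrix.symplecticGroup (Fin m) F) (hAA : A * A = 1) (u v : Fin m ⊕ Fin m → F) :
    (sympData A hA hAA).f u v = Cfsg.sympForm m F u v := rfl

theorem sympData_t (A : Matrix (Fin m ⊕ Fin m) (Fin m ⊕ Fin m) F)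
    (hA : A ∈ Matrix.symplecticGroup (Fin m) F) (hAA : A * A = 1) (v : Fin m ⊕ Fin m → F) :
    (sympData A hA hAA).t v = A *ᵥ v := Matrix.toLin'_apply A v

theorem sympData_rk (A : Matrix (Fin m ⊕ Fin m) (Fin m ⊕ Fin m) F)
    (hA : A ∈ Matrix.symplecticGroup (Fin m) F) (hAA : A * A = 1) :
    (sympData A hA hAA).rk = (A - 1).rank := by
  unfold InvData.rk Matrix.rank
  have : (sympData A hA hAA).N = (A - 1).mulVecLin := by
    apply LinearMap.ext
    intro v
    rw [InvData.N_apply, sympData_t, Matrix.mulVecLin_apply, Matrix.sub_mulVec,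
      Matrix.one_mulVec]
  rw [this]

theorem sympData_altT (A : Matrix (Fin m ⊕ Fin m) (Fin m ⊕ Fin m) F)
    (hA : A ∈ Matrix.symplecticGroup (Fin m) F) (hAA : A * A = 1) :
    (sympData A hA hAA).altT ↔ ∀ v, Cfsg.sympForm m F v (A *ᵥ v) = 0 := by
  unfold InvData.altT
  simp only [sympData_f, sympData_t]

/-- A matrix preserving the symplectic form is symplectic. -/
theorem mem_symplectic_of_preserves (G : Matrix (Fin m ⊕ Fin m) (Fin m ⊕ Fin m) F)
    (h : ∀ u v, Cfsg.sympForm m F (G *ᵥ u) (G *ᵥ v) = Cfsg.sympForm m F u v) :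
    G ∈ Matrix.symplecticGroup (Fin m) F := by
  rw [SymplecticGroup.mem_iff']
  ext i j
  have := h (Pi.single i 1) (Pi.single j 1)
  unfold Cfsg.sympForm at this
  rw [← Matrix.vecMul_transpose, ← Matrix.dotProduct_mulVec, Matrix.mulVec_mulVec,
    Matrix.mulVec_mulVec, single_one_dotProduct, single_one_dotProduct,
    Matrix.mulVec_single_one, Matrix.mulVec_single_one] at this
  exact this

/-- Conjugacy of symplectic involutions from the classification. -/
theorem symp_conj_of_invariants [Finite F] [CharP F 2]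
    (A B : Matrix (Fin m ⊕ Fin m) (Fin m ⊕ Fin m) F)
    (hA : A ∈ Matrix.symplecticGroup (Fin m) F) (hAA : A * A = 1)
    (hB : B ∈ Matrix.symplecticGroup (Fin m) F) (hBB : B * B = 1)
    (hrk : (A - 1).rank = (B - 1).rank)
    (halt : (∀ v, Cfsg.sympForm m F v (A *ᵥ v) = 0) ↔ (∀ v, Cfsg.sympForm m F v (B *ᵥ v) = 0)) :
    ∃ G, G ∈ Matrix.symplecticGroup (Fin m) F ∧ G * A = B * G := by
  have h := InvData.classify (F := F) (finrank F (Fin m ⊕ Fin m → F)) (Fin m ⊕ Fin m → F)
    (Fin m ⊕ Fin m → F) (sympData A hA hAA) (sympData B hB hBB) rfl rfl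
    (by rw [sympData_rk, sympData_rk, hrk])
    (by rw [sympData_altT, sympData_altT]; exact halt)
  obtain ⟨e, hef, het⟩ := h
  refine ⟨LinearMap.toMatrix' (e : (Fin m ⊕ Fin m → F) →ₗ[F] (Fin m ⊕ Fin m → F)), ?_, ?_⟩
  · apply mem_symplectic_of_preserves
    intro u v
    rw [← Matrix.toLin'_apply, ← Matrix.toLin'_apply, Matrix.toLin'_toMatrix']
    exact hef u v
  · have h1 : A = LinearMap.toMatrix' (Matrix.toLin' A) := (LinearMap.toMatrix'_toLin' A).symm
    have h2 : B = LinearMap.toMatrix' (Matrix.toLin' B) := (LinearMap.toMatrix'_toLin' B).symm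
    rw [h1, h2, ← LinearMap.toMatrix'_comp, ← LinearMap.toMatrix'_comp]
    congr 1
    apply LinearMap.ext
    intro v
    exact het v

end Cfsg.Agent.Helper36
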