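import Cfsg.Agent.Helper36.Tz16
import Cfsg.Agent.Helper17.ChevTri

/-!
helper36: 2-elements of the large Ree group have order at most 32.

The height grading of the adjoint module of `F₄` (heights `-11 … 11`, shifted by `11`) makes every element of
the positive unipotent subgroup unitriangular of nilpotency index at most `23`; in characteristic 2 this gives
`u ^ 32 = 1`. The subgroup `U ⊓ ²F₄(q)` has order `q ^ 12`, so is a Sylow 2-subgroup.
-/

set_option autoImplicit false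
set_option linter.unusedSectionVars false
set_option linter.unusedVariables false

namespace Cfsg.Agent.Helper36

open Cfsg Cfsg.Lie Cfsg.Agent.Helper17

/-- Shifted heights of the 48 roots of `chevF4`. -/
def f4HtTab : Array ℕ :=
  #[0, 1, 2, 3, 4, 5, 6, 4, 5, 6, 7, 7, 8, 9, 10, 6, 7, 8, 8, 9, 10, 9, 10, 10, 12, 12, 13, 12, 13, 14, 14,
    15, 16, 12, 13, 14, 15, 15, 16, 17, 18, 16, 17, 18, 19, 20, 21, 22]

/-- The height grading on the index set of `chevF4`. -/
def f4Ht : chevF4.Idx → ℕ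
  | Sum.inl _ => 11
  | Sum.inr s => f4HtTab.getD s.val 0

/-- Table check for the height grading. -/
def f4HtOK : Bool :=
  (List.range 48).all fun r =>
    decide (f4HtTab.getD r 0 < 23) &&
    (!(decide (chevF4.IsPosRoot r)) ||
      (decide (12 ≤ f4HtTab.getD r 0) && decide (f4HtTab.getD (chevF4.negIdx.getD r 0) 0 + 1 ≤ 11) &&
        (chevF4.chain.getD r #[]).toList.all fun e => e.2.toList.all fun um =>
          decide (f4HtTab.getD e.1 0 + 1 ≤ f4HtTab.getD um.1 0)))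

theorem f4HtOK_true : f4HtOK = true := by decide +kernel

theorem f4Ht_lt (i : chevF4.Idx) : f4Ht i < 23 := by
  rcases i with i | s
  · show 11 < 23
    omega
  · have h := f4HtOK_true
    unfold f4HtOK at h
    simp only [Bool.and_eq_true, decide_eq_true_eq, List.all_eq_true] at h
    exact (h s.val (List.mem_range.mpr s.isLt)).1

theorem f4HtOK_spec {r : ℕ} (hr : chevF4.IsPosRoot r) :
    12 ≤ f4HtTab.getD r 0 ∧ f4HtTab.getD (chevF4.negIdx.getD r 0) 0 + 1 ≤ 11 ∧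
      ∀ e ∈ (chevF4.chain.getD r #[]).toList, ∀ um ∈ e.2.toList,
        f4HtTab.getD e.1 0 + 1 ≤ f4HtTab.getD um.1 0 := by
  have h := f4HtOK_true
  unfold f4HtOK at h
  simp only [Bool.and_eq_true, decide_eq_true_eq, List.all_eq_true, Bool.or_eq_true,
    Bool.not_eq_true', decide_eq_false_iff_not] at h
  have h1 := (h r (List.mem_range.mpr hr.1)).2
  rcases h1 with h1 | h1
  · exact absurd hr h1
  · exact ⟨h1.1.1, h1.1.2, h1.2⟩

variable {K : Type*} [Field K]

/-- For a positive root `r`, `x_r(t) - 1` raises the height. -/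
theorem f4_x_sub_one_ht {r : ℕ} (hr : chevF4.IsPosRoot r) (t : K) :
    Deg f4Ht 1 (chevF4.x K r t - 1) := by
  obtain ⟨h1, h2, h3⟩ := f4HtOK_spec hr
  intro row col hne
  rcases x_sub_one_support chevF4 hr.1 t row col hne with ⟨i, rfl, rfl⟩ | ⟨s, hs, hsr, rfl, hrow⟩ |
    ⟨s, u, rfl, rfl, e, he, hes, um, hum, humu⟩
  · show 11 + 1 ≤ f4HtTab.getD r 0
    omega
  · rcases hrow with ⟨i, rfl⟩ | rfl
    · show f4HtTab.getD s.val 0 + 1 ≤ 11
      rw [hs]; exact h2
    · show f4HtTab.getD s.val 0 + 1 ≤ f4HtTab.getD r 0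
      rw [hs]; omega
  · have := h3 e he um hum
    show f4HtTab.getD s.val 0 + 1 ≤ f4HtTab.getD u.val 0
    rw [← hes, ← humu]; exact this

/-- Every element of `U` is unitriangular for the height grading. -/
theorem f4_U_ht {g : GL chevF4.Idx K} (hg : g ∈ chevF4.posUnipotent K) :
    Deg f4Ht 1 ((g : Matrix chevF4.Idx chevF4.Idx K) - 1) := by
  unfold ChevalleyDatum.posUnipotent at hg
  induction hg using Subgroup.closure_induction with
  | mem g hg =>
    obtain ⟨r, t, hr, hgx⟩ := hg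
    rw [hgx]; exact f4_x_sub_one_ht hr t
  | one => rw [Units.val_one, sub_self]; exact deg_zero 1
  | mul g g' _ _ ih ih' => rw [Units.val_mul]; exact ih.mul_sub_one ih'
  | inv g _ ih =>
    exact Deg.inv_sub_one (by rw [← Units.val_mul, mul_inv_cancel, Units.val_one]) ih

/-- In characteristic 2 every element of `U` has order dividing 32. -/
theorem f4_U_pow32 [CharP K 2] {g : GL chevF4.Idx K} (hg : g ∈ chevF4.posUnipotent K) :
    g ^ 32 = 1 := by
  have h1 := f4_U_ht hg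
  have h2 : ((g : Matrix chevF4.Idx chevF4.Idx K) - 1) ^ 23 = 0 :=
    Deg.eq_zero (Deg.pow h1 23) f4Ht_lt
  have h3 : ((g : Matrix chevF4.Idx chevF4.Idx K) - 1) ^ 32 = 0 := by
    have : (32 : ℕ) = 23 + 9 := rfl
    rw [this, pow_add, h2, zero_mul]
  haveI : Fact (Nat.Prime 2) := ⟨Nat.prime_two⟩
  haveI : Nonempty chevF4.Idx := ⟨Sum.inr ⟨0, by decide⟩⟩
  have h4 : ((g : Matrix chevF4.Idx chevF4.Idx K)) ^ 32 = 1 := by
    have e : (g : Matrix chevF4.Idx chevF4.Idx K) = ((g : Matrix chevF4.Idx chevF4.Idx K) - 1) + 1 := by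
      abel
    have e32 : (32 : ℕ) = 2 ^ 5 := rfl
    rw [e, e32, add_pow_char_pow_of_commute 2 5 (Commute.one_right _), ← e32, h3, one_pow, zero_add]
  apply Units.ext
  rw [Units.val_pow_eq_pow_val, h4, Units.val_one]

variable [Fintype K] {m : ℕ}

theorem tf_odd_index (q : ℕ) (hq1 : 1 ≤ q) :
    ¬ 2 ∣ (2 * q - 1) * ((2 * q) ^ 3 + 1) * ((2 * q) ^ 4 - 1) * ((2 * q) ^ 6 + 1) := by
  intro hdvd
  have o1 : ¬ 2 ∣ (2 * q - 1) := by omega
  have o2 : ¬ 2 ∣ ((2 * q) ^ 3 + 1) := by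
    intro h
    have : 2 ∣ (2 * q) ^ 3 := Dvd.dvd.pow (dvd_mul_right 2 q) (by norm_num)
    omega
  have o3 : ¬ 2 ∣ ((2 * q) ^ 4 - 1) := by
    intro h
    have : 2 ∣ (2 * q) ^ 4 := Dvd.dvd.pow (dvd_mul_right 2 q) (by norm_num)
    have : 1 ≤ (2 * q) ^ 4 := Nat.one_le_pow _ _ (by omega)
    omega
  have o4 : ¬ 2 ∣ ((2 * q) ^ 6 + 1) := by
    intro h
    have : 2 ∣ (2 * q) ^ 6 := Dvd.dvd.pow (dvd_mul_right 2 q) (by norm_num)
    omega
  rcases (Nat.Prime.dvd_mul Nat.prime_two).mp hdvd with h | h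
  · rcases (Nat.Prime.dvd_mul Nat.prime_two).mp h with h | h
    · rcases (Nat.Prime.dvd_mul Nat.prime_two).mp h with h | h
      · exact o1 h
      · exact o2 h
    · exact o3 h
  · exact o4 h

/-- `U ⊓ ²F₄(q)` is a 2-group of odd index in `²F₄(q)`. -/
theorem tf_U_sylow (hK : Fintype.card K = 2 ^ (2 * m + 1)) :
    IsPGroup 2 ↥((chevF4.posUnipotent K).subgroupOf (twistedF4 K (2 ^ m))) ∧
      ¬ 2 ∣ ((chevF4.posUnipotent K).subgroupOf (twistedF4 K (2 ^ m))).index := by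
  haveI := tf_charP hK
  have hPc : Nat.card ↥((chevF4.posUnipotent K).subgroupOf (twistedF4 K (2 ^ m))) =
      (2 ^ (2 * m + 1)) ^ 12 := by
    rw [← tf_U_card hK, ← Subgroup.inf_subgroupOf_right]
    exact Nat.card_congr (Subgroup.subgroupOfEquivOfLe (inf_le_right)).toEquiv
  have hGc := tf_card hK
  refine ⟨IsPGroup.of_card (n := (2 * m + 1) * 12) (by rw [hPc, pow_mul]), ?_⟩
  have h1 := ((chevF4.posUnipotent K).subgroupOf (twistedF4 K (2 ^ m))).index_mul_card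
  rw [hPc, hGc] at h1
  have hq : 0 < (2 ^ (2 * m + 1)) ^ 12 := by positivity
  have h2 : ((chevF4.posUnipotent K).subgroupOf (twistedF4 K (2 ^ m))).index = (2 ^ (2 * m + 1) - 1) *
      ((2 ^ (2 * m + 1)) ^ 3 + 1) * ((2 ^ (2 * m + 1)) ^ 4 - 1) * ((2 ^ (2 * m + 1)) ^ 6 + 1) := by
    apply Nat.eq_of_mul_eq_mul_right hq
    rw [h1]; ring
  rw [h2]
  obtain ⟨q, hq2⟩ : ∃ q, 2 ^ (2 * m + 1) = 2 * q := ⟨2 ^ (2 * m), by rw [pow_succ]; ring⟩
  have hq1 : 1 ≤ q := by
    rcases Nat.eq_zero_or_pos q with h | h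
    · rw [h] at hq2; simp at hq2
    · exact h
  rw [hq2]
  exact tf_odd_index q hq1

/-- Conjugating a 2-element of a finite group into a 2-subgroup of odd index. -/
theorem exists_conj_mem_of_two_pow {G : Type*} [Group G] [Finite G] (P : Subgroup G)
    (hP : IsPGroup 2 ↥P) (hidx : ¬ 2 ∣ P.index) (x : G) (j : ℕ) (hj : orderOf x = 2 ^ j) :
    ∃ g : G, g * x * g⁻¹ ∈ P := by
  haveI : Fact (Nat.Prime 2) := ⟨Nat.prime_two⟩
  let S : Sylow 2 G := hP.toSylow hidx
  have hxp : IsPGroup 2 ↥(Subgroup.zpowers x) :=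
    IsPGroup.of_card (n := j) (by rw [Nat.card_zpowers, hj])
  obtain ⟨Q, hQ⟩ := hxp.exists_le_sylow
  obtain ⟨g, hg⟩ := MulAction.exists_smul_eq G Q S
  refine ⟨g, ?_⟩
  have h1 : x ∈ (Q : Subgroup G) := hQ (Subgroup.mem_zpowers x)
  have h2 : g * x * g⁻¹ ∈ ((g • Q : Sylow 2 G) : Subgroup G) := by
    rw [Sylow.coe_subgroup_smul]
    exact ⟨x, h1, rfl⟩
  rw [hg] at h2
  exact h2

/-- Every element of 2-power order of `²F₄(q)` has order at most 32. -/
theorem tf_two_elt_order (hK : Fintype.card K = 2 ^ (2 * m + 1))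
    (x : ↥(twistedF4 K (2 ^ m))) (hx : ∃ j : ℕ, orderOf x = 2 ^ j) : orderOf x ≤ 32 := by
  haveI := tf_charP hK
  obtain ⟨j, hj⟩ := hx
  obtain ⟨hPp, hidx⟩ := tf_U_sylow (m := m) hK
  obtain ⟨g, hmem⟩ := exists_conj_mem_of_two_pow _ hPp hidx x j hj
  have h32 : (g * x * g⁻¹) ^ 32 = 1 := by
    apply Subtype.ext
    rw [Subgroup.coe_pow, Subgroup.coe_one]
    exact f4_U_pow32 (Subgroup.mem_subgroupOf.mp hmem)
  have hx32 : x ^ 32 = 1 := by
    rw [conj_pow] at h32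
    have h := congrArg (fun y => g⁻¹ * y * g) h32
    have e1 : g⁻¹ * (g * x ^ 32 * g⁻¹) * g = x ^ 32 := by group
    have e2 : g⁻¹ * 1 * g = (1 : ↥(twistedF4 K (2 ^ m))) := by group
    exact e1.symm.trans (h.trans e2)
  exact Nat.le_of_dvd (by norm_num) (orderOf_dvd_of_pow_eq_one hx32)

end Cfsg.Agent.Helper36
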